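import Cfsg.Agent.JT.B4
import Cfsg.Agent.JT.RS

/-! Simple groups of order 50232960: three of the six lists for the 5-block die. -/

set_option autoImplicit false
set_option linter.unusedSectionVars false

namespace JT
open Cfsg H8 H2 Subgroup MQ

variable {G : Type*} [Group G] [Fintype G] {r x y : G}

theorem real_of_even {p : ℕ} [Fact p.Prime] (h : DefOne p x) (h2 : 2 ∣ Nat.card h.H) :
    IsConj x x⁻¹ := by
  obtain ⟨u, hu⟩ := exists_prime_orderOf_dvd_card' 2 h2
  have a : ((u : (ZMod p)ˣ) : ZMod p) ^ 2 = 1 := by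
    rw [← Units.val_pow_eq_pow_val, ← coe_pow, ← hu, pow_orderOf_eq_one]; rfl
  have := h.mem_H.1 u.2
  rcases sq_eq_sq_iff_eq_or_eq_neg.1 (a.trans (one_pow 2).symm) with e | e
  · have : u = 1 := Subtype.ext (Units.ext e)
    rw [this, orderOf_one] at hu
    omega
  · rwa [e, h.xp_neg, xp_one] at this

theorem full_cc {p n : ℕ} [Fact p.Prime] {h : DefOne p r} (F : Full h n) (j : Fin n) :
    ∃ k, F.c k = cc (F.c j) :=
  F.mem_of_const (a := F.s j)
    (fun e => F.ne_one j (Subtype.ext (funext fun g => by rw [← inv_inv g, ← cc_apply, e]; rfl)))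
    (by rcases F.s_eq j with e | e <;> simp [e]) fun v hv => by
      rw [cc_apply, val_inv (F.val_mul j hv)]

theorem full_real {p n : ℕ} [Fact p.Prime] {h : DefOne p r} (F : Full h n) (j : Fin n)
    (hd : ∀ k, deg (F.c k) = deg (F.c j) → k = j) : cc (F.c j) = F.c j := by
  obtain ⟨k, hk⟩ := full_cc F j
  rw [← hk, hd k (by rw [hk, deg_cc])]

namespace Loc
variable [IsSimpleGroup G] (L : Loc x y)
include L

/-- the exceptional characters for 17 are real -/
theorem real17 {χ : IrrCharacter G} (hd : deg χ % 17 = 8 ∨ deg χ % 17 = 9) : cc χ = χ := by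
  classical
  obtain ⟨T⟩ := exists_gen L.hy (n := 7) L.ey
  have m : ∀ ψ, deg ψ = deg χ → ψ ∈ T.X := fun ψ e => by
    by_contra c
    by_cases h1 : ψ = one1 G
    · rw [h1, deg_one1] at e; omega
    by_cases h2 : ∃ j, T.c j = ψ
    · obtain ⟨j, rfl⟩ := h2
      have := T.mod j
      rcases T.s_eq j with s | s <;> rw [s] at this <;> omega
    · have := dvd_deg_of_zero ψ L.hy.pow_p (by
        simpa [xp_one] using T.other' L.vy h1 (not_exists.1 h2) c (i := 1) one_ne_zero)
      omega
  by_contra c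
  have XE : T.X = {cc χ, χ} := by
    refine (Finset.eq_of_subset_of_card_le (fun a ha => ?_) ?_).symm
    · rcases Finset.mem_insert.1 ha with rfl | ha
      · exact m _ (deg_cc χ)
      · exact Finset.mem_singleton.1 ha ▸ m _ rfl
    · have := T.cardX
      rw [Finset.card_pair c]; omega
  have := T.valX 1 one_ne_zero 1 (one_mem _)
  rw [XE, Finset.sum_pair c, mul_one, xp_one, cc_apply,
    val_conj χ (real_of_even L.hy (by rw [L.ey]; decide))] at this
  obtain ⟨z, hz⟩ := exists_int_of_mul (char_isIntegral (irr_isCharacter χ.2) y) (m := 2) (a := T.s0)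
    (by decide) (by rw [← this]; push_cast; ring)
  rw [hz] at this
  have e : z + z = T.s0 := by exact_mod_cast this
  rcases T.s0_eq with s | s <;> omega

/-- only the lists B, C, D survive the real stem -/
theorem not_AEF {h : DefOne 5 r} (he : Nat.card h.H = 4) (F : Full h 4)
    (hF : (F.s 0 * deg (F.c 0), F.s 1 * deg (F.c 1), F.s 2 * deg (F.c 2), F.s 3 * deg (F.c 3)) ∈
      [((-2584 : ℤ), (-969 : ℤ), (-324 : ℤ), (3876 : ℤ)), (-969, 76, 76, 816),
        (-324, 76, 76, 171)]) : False := by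
  have a := rs h (by decide) rfl he F
  have s0 := F.s_eq 0
  have s1 := F.s_eq 1
  have s2 := F.s_eq 2
  have s3 := F.s_eq 3
  have k : ∀ j, cc (F.c j) = F.c j := fun j => by
    by_cases c : deg (F.c j) = 76
    · exact L.real17 (by omega)
    refine full_real F j fun k e => ?_
    simp only [List.mem_cons, List.not_mem_nil, or_false, Prod.mk.injEq] at hF
    rcases s0 with s0 | s0 <;> rcases s1 with s1 | s1 <;> rcases s2 with s2 | s2 <;>
      rcases s3 with s3 | s3 <;> rw [s0, s1, s2, s3] at hF <;> fin_cases j <;> fin_cases k <;>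
      simp only [Fin.zero_eta, Fin.mk_one, Fin.reduceFinMk] at e c ⊢ <;> omega
  simp only [k, if_true, Fin.sum_univ_four] at a
  simp only [List.mem_cons, List.not_mem_nil, or_false, Prod.mk.injEq] at hF
  rcases s0 with s0 | s0 <;> rcases s1 with s1 | s1 <;> rcases s2 with s2 | s2 <;>
    rcases s3 with s3 | s3 <;> rw [s0, s1, s2, s3] at hF a <;> omega

/-- the three remaining lists -/
theorem bcd {h : DefOne 5 r} (he : Nat.card h.H = 4) (F : Full h 4) :
    (∀ j, F.s j * deg (F.c j) = ![-2584, -969, 816, 2736] j) ∧ Nat.card h.V ∈ [3, 8, 18, 108] ∨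
    (∀ j, F.s j * deg (F.c j) = ![-2584, -324, 171, 2736] j) ∧ Nat.card h.V ∈ [3, 8] ∨
    (∀ j, F.s j * deg (F.c j) = ![-969, -324, 646, 646] j) ∧ Nat.card h.V ∈ [3, 8, 48] := by
  obtain ⟨t, ht, e, v⟩ := L.b4 he F
  have n := L.not_AEF he F
  rw [e] at n
  have k : ∀ a b c d : ℤ, t.1 = (a, b, c, d) → ∀ j, F.s j * deg (F.c j) = ![a, b, c, d] j :=
    fun a b c d k j => by
      rw [k] at e
      simp only [Prod.mk.injEq] at e
      fin_cases j
      exacts [e.1, e.2.1, e.2.2.1, e.2.2.2]
  simp only [L5, List.mem_cons, List.not_mem_nil, or_false] at ht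
  rcases ht with rfl | rfl | rfl | rfl | rfl | rfl
  · exact (n (by simp)).elim
  · exact .inl ⟨k _ _ _ _ rfl, v⟩
  · exact .inr (.inl ⟨k _ _ _ _ rfl, v⟩)
  · exact .inr (.inr ⟨k _ _ _ _ rfl, v⟩)
  · exact (n (by simp)).elim
  · exact (n (by simp)).elim

end Loc
end JT
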