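import Cfsg.Agent.JT.C5
import Cfsg.Agent.JT.L0

/-! Simple groups of order 50232960: the principal 5-block for an automizer of order 4. -/

set_option autoImplicit false
set_option linter.unusedSectionVars false

namespace JT
open Cfsg H8 H2 Subgroup MQ

variable {G : Type*} [Group G] [Fintype G] {r x y : G}

/-- the sum of `χ` over the non-trivial powers of an element of order `p` with automizer of order
`e`, as a function of the degree -/
def sgD (p e d : ℕ) : ℤ := if d % p = 1 then p - 1 else if d % p = p - 1 then 1 - p else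
  if d % p = p - e then e else if d % p = e then -e else 0

section
variable {p : ℕ} [hp : Fact p.Prime] {h : DefOne p x} {n : ℕ}

theorem card_ne : Fintype.card {i : ZMod p // i ≠ 0} = p - 1 := by
  rw [Fintype.card_subtype_compl, ZMod.card]; simp

theorem sg_cases (hV : h.V = ⊥) (he : Nat.card h.H = n + 1) (T : Gen h n) (χ : IrrCharacter G) :
    ∃ a : ℤ, ∑ i : {i : ZMod p // i ≠ 0}, χ.1 (xp x i.1) = a ∧
      (a = p - 1 ∧ (p : ℤ) ∣ deg χ - 1 ∨ a = 1 - p ∧ (p : ℤ) ∣ deg χ + 1 ∨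
      a = n + 1 ∧ (p : ℤ) ∣ deg χ + (n + 1) ∧ deg χ = deg T.E ∨
      a = -(n + 1) ∧ (p : ℤ) ∣ deg χ - (n + 1) ∧ deg χ = deg T.E ∨ a = 0 ∧ (p : ℤ) ∣ deg χ) := by
  have c : ∀ b : ℤ, (∀ i : ZMod p, i ≠ 0 → χ.1 (xp x i) = b) →
      ∑ i : {i : ZMod p // i ≠ 0}, χ.1 (xp x i.1) = (((p - 1) * b : ℤ) : ℂ) := fun b hb => by
    rw [Finset.sum_congr rfl fun i _ => hb i.1 i.2, Finset.sum_const, Finset.card_univ, card_ne,
      nsmul_eq_mul, Nat.cast_sub hp.out.one_le]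
    push_cast; ring
  by_cases h1 : χ = one1 G
  · exact ⟨_, c 1 fun i _ => by simp [h1], .inl ⟨by ring, by rw [h1, deg_one1]; simp⟩⟩
  by_cases h2 : ∃ j, T.c j = χ
  · obtain ⟨j, rfl⟩ := h2
    have := T.mod j
    refine ⟨_, c _ fun i hi => T.val' j hi, ?_⟩
    rcases T.s_eq j with e | e <;> rw [e] at this ⊢
    · exact .inl ⟨by ring, by simpa using this⟩
    · exact .inr (.inl ⟨by ring, dvd_neg.1 (by rwa [show -((deg (T.c j) : ℤ) + 1) =
        -1 * deg (T.c j) - 1 by ring])⟩)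
  by_cases h3 : χ ∈ T.X
  · have := T.mod0
    rw [← T.deg_X h3] at this
    obtain ⟨k, hk⟩ := T.eta χ h3
    refine ⟨T.s0 * (n + 1), ?_, ?_⟩
    · rw [Finset.sum_congr rfl fun i _ => by simpa using hk i.1 i.2 1 (one_mem _),
        Finset.sum_neg_distrib, ← Finset.mul_sum, h.sum_eta_ne k.ne_zero, he]
      push_cast; ring
    rcases T.s0_eq with e | e <;> rw [e] at this ⊢
    · exact .inr (.inr (.inl ⟨by ring, by simpa using this, T.deg_X h3⟩))
    · exact .inr (.inr (.inr (.inl ⟨by ring, dvd_neg.1 (by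
        rwa [show -((deg χ : ℤ) - (n + 1)) = -1 * deg χ + (n + 1) by ring]), T.deg_X h3⟩)))
  · have z := fun i hi => T.other' hV h1 (not_exists.1 h2) h3 (i := i) hi
    refine ⟨_, c 0 fun i hi => by simpa using z i hi, .inr (.inr (.inr (.inr ⟨by ring, ?_⟩)))⟩
    exact_mod_cast dvd_deg_of_zero χ h.pow_p (by simpa [xp_one] using z 1 one_ne_zero)

/-- orthogonality of a full block against the powers of `x` -/
theorem full_sg {q m : ℕ} [Fact q.Prime] {k : DefOne q r} (F : Full k m) (hq : q ≠ p)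
    (h : DefOne p x) {a : Fin m → ℤ}
    (ha : ∀ j, ∑ i : {i : ZMod p // i ≠ 0}, (F.c j).1 (xp x i.1) = a j) :
    (p - 1 : ℤ) + ∑ j, F.s j * a j = 0 := by
  have : ∑ i : {i : ZMod p // i ≠ 0}, (1 + ∑ j, F.s j * (F.c j).1 (xp x i.1)) = 0 :=
    Finset.sum_eq_zero fun i _ => F.lin _ (by
      rw [h.orderOf_xp i.2]; exact mt (Nat.prime_dvd_prime_iff_eq Fact.out hp.out).1 hq)
  rw [Finset.sum_add_distrib, Finset.sum_comm, Finset.sum_const, Finset.card_univ, card_ne,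
    nsmul_eq_mul, Nat.cast_sub hp.out.one_le] at this
  simp only [← Finset.mul_sum, ha, mul_one] at this
  exact_mod_cast this
end

/-- the local data at 19 and 17 -/
structure Loc (x y : G) : Prop where
  hN : Nat.card G = 50232960
  hx : DefOne 19 x
  vx : hx.V = ⊥
  ex : Nat.card hx.H = 9
  hy : DefOne 17 y
  vy : hy.V = ⊥
  ey : Nat.card hy.H = 8

/-- the signed degrees -/
def S5 : List ℤ := [-5814, -2754, -2584, -1539, -969, -324, -9, 76, 171, 646, 816, 1216, 2176, 2736,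
  3876]

theorem s5_chk : ∀ d ∈ dv, d ≠ 1 → d * d ≤ 50232960 →
    (d % 19 = 0 ∨ d % 19 = 1 ∨ d % 19 = 18 ∨ d % 19 = 9 ∨ d % 19 = 10) →
    (d % 17 = 0 ∨ d % 17 = 1 ∨ d % 17 = 16 ∨ d % 17 = 8 ∨ d % 17 = 9) →
    ∀ s ∈ [(1 : ℤ), -1], (s * d - 1) % 5 = 0 → s * d ∈ S5 := by decide +kernel

/-- the six lists with the orders of `V` -/
def L5 : List ((ℤ × ℤ × ℤ × ℤ) × List ℕ) := [((-2584, -969, -324, 3876), [3, 8, 48]),
  ((-2584, -969, 816, 2736), [3, 8, 18, 108]), ((-2584, -324, 171, 2736), [3, 8]),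
  ((-969, -324, 646, 646), [3, 8, 48]), ((-969, 76, 76, 816), [3, 8, 18, 108, 648]),
  ((-324, 76, 76, 171), [3, 8, 48, 68, 408])]

theorem b4_chk : ∀ a ∈ S5, ∀ b ∈ S5, a ≤ b → ∀ c ∈ S5, b ≤ c → ∀ d ∈ S5, c ≤ d →
    1 + (a + b + c + d) = 0 →
    18 + ([a, b, c, d].map fun u => u.sign * sgD 19 9 u.natAbs).sum = 0 →
    16 + ([a, b, c, d].map fun u => u.sign * sgD 17 8 u.natAbs).sum = 0 →
    (∀ u ∈ [a, b, c, d], ∀ w ∈ [a, b, c, d], (u.natAbs % 17 = 8 ∨ u.natAbs % 17 = 9) →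
      (w.natAbs % 17 = 8 ∨ w.natAbs % 17 = 9) → u.natAbs = w.natAbs) →
    (a, b, c, d) ∈ L5.map (·.1) := by decide +kernel

theorem v4_chk : ∀ v ∈ dv, 10046592 % (4 * v) = 0 → 10046592 / (4 * v) % 5 = 1 → ∀ t ∈ L5,
    t.1.1 ∣ (10046592 / v : ℕ) → t.1.2.1 ∣ (10046592 / v : ℕ) → t.1.2.2.1 ∣ (10046592 / v : ℕ) →
    t.1.2.2.2 ∣ (10046592 / v : ℕ) → v ∈ t.2 := by decide +kernel

namespace Loc
variable [IsSimpleGroup G] (L : Loc x y)
include L

theorem nc : ¬ IsMulCommutative G := not_comm_of_card_not_prime (by rw [L.hN]; norm_num)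
theorem perf : _root_.commutator G = ⊤ := commutator_eq_top_of_simple L.nc
theorem ty : Ty G := ty_of L.hx L.vx L.ex L.hy L.vy L.ey

theorem sx (χ : IrrCharacter G) :
    ∑ i : {i : ZMod 19 // i ≠ 0}, χ.1 (xp x i.1) = sgD 19 9 (deg χ) := by
  obtain ⟨T⟩ := exists_gen L.hx (n := 8) L.ex
  obtain ⟨a, h1, h2⟩ := sg_cases L.vx L.ex T χ
  rw [h1]; congr 1
  unfold sgD; split_ifs <;> omega

theorem sy (χ : IrrCharacter G) :
    ∑ i : {i : ZMod 17 // i ≠ 0}, χ.1 (xp y i.1) = sgD 17 8 (deg χ) := by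
  obtain ⟨T⟩ := exists_gen L.hy (n := 7) L.ey
  obtain ⟨a, h1, h2⟩ := sg_cases L.vy L.ey T χ
  rw [h1]; congr 1
  unfold sgD; split_ifs <;> omega

theorem exc17 {χ ψ : IrrCharacter G} (h : deg χ % 17 = 8 ∨ deg χ % 17 = 9)
    (k : deg ψ % 17 = 8 ∨ deg ψ % 17 = 9) : deg χ = deg ψ := by
  obtain ⟨T⟩ := exists_gen L.hy (n := 7) L.ey
  obtain ⟨a, -, h2⟩ := sg_cases L.vy L.ey T χ
  obtain ⟨b, -, h3⟩ := sg_cases L.vy L.ey T ψ
  omega

theorem exc19 {χ ψ : IrrCharacter G} (h : deg χ % 19 = 9 ∨ deg χ % 19 = 10)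
    (k : deg ψ % 19 = 9 ∨ deg ψ % 19 = 10) : deg χ = deg ψ := by
  obtain ⟨T⟩ := exists_gen L.hx (n := 8) L.ex
  obtain ⟨a, -, h2⟩ := sg_cases L.vx L.ex T χ
  obtain ⟨b, -, h3⟩ := sg_cases L.vx L.ex T ψ
  omega

/-- THE PRINCIPAL 5-BLOCK for `e₅ = 4` -/
theorem b4 {h : DefOne 5 r} (he : Nat.card h.H = 4) (F : Full h 4) : ∃ t ∈ L5,
    (F.s 0 * deg (F.c 0), F.s 1 * deg (F.c 1), F.s 2 * deg (F.c 2), F.s 3 * deg (F.c 3)) = t.1 ∧
      Nat.card h.V ∈ t.2 := by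
  obtain ⟨h1, h2, -⟩ := loc_num L.nc h (m := 10046592) L.hN
  have v0 : 0 < Nat.card h.V := Nat.card_pos
  have i4 : (Cx r).index = 10046592 / Nat.card h.V := by
    rw [← h1, Nat.mul_div_cancel _ v0, h.index_Cx]
  have d := fun j => i4 ▸ F.dvd j
  have v1 : Nat.card h.V ∣ 10046592 := h1 ▸ dvd_mul_left _ _
  have m : ∀ j, F.s j * deg (F.c j) ∈ S5 := fun j => s5_chk _
    (mem_dv ((d j).trans (Nat.div_dvd_of_dvd v1))) (by have := two_le_deg L.perf (F.ne_one j); omega)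
    (L.hN ▸ deg_sq_le _) (L.ty _).1 (L.ty _).2 _ (by simpa using F.s_eq j)
    (Int.emod_eq_zero_of_dvd (F.mod j))
  have e : ∀ j, (F.s j * deg (F.c j)).sign = F.s j ∧ (F.s j * deg (F.c j)).natAbs = deg (F.c j) :=
    fun j => by rcases F.s_eq j with e | e <;> simp [e, Int.sign_eq_one_iff_pos, deg_pos]
  have a := F.sum_deg
  have b := full_sg F (by decide) L.hx fun j => L.sx (F.c j)
  have c := full_sg F (by decide) L.hy fun j => L.sy (F.c j)
  rw [Fin.sum_univ_four] at a b c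
  obtain ⟨t, ht, k⟩ := List.mem_map.1 (b4_chk _ (m 0) _ (m 1) (F.mono (by decide)) _ (m 2)
    (F.mono (by decide)) _ (m 3) (F.mono (by decide)) a
    (by simp only [List.map_cons, List.map_nil, List.sum_cons, List.sum_nil, e]; omega)
    (by simp only [List.map_cons, List.map_nil, List.sum_cons, List.sum_nil, e]; omega) (by
      intro u hu w hw
      simp only [List.mem_cons, List.not_mem_nil, or_false] at hu hw
      rcases hu with rfl | rfl | rfl | rfl <;> rcases hw with rfl | rfl | rfl | rfl <;>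
        rw [(e _).2] <;> (try rw [(e _).2]) <;> exact L.exc17))
  have d' := fun j => sgn_dvd (F.s_eq j) (d j)
  rw [he] at h1
  refine ⟨t, ht, k.symm, v4_chk _ (mem_dv v1) ?_ ?_ t ht ?_ ?_ ?_ ?_⟩
  · rw [← h1, mul_assoc, Nat.mul_mod_left]
  · rw [← h1, mul_assoc, Nat.mul_div_cancel _ (by positivity), h2]
  all_goals rw [k]; exact d' _

end Loc
end JT
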