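import Cfsg.Agent.JT.C5
import Cfsg.Agent.MQ.D3b

/-! A congruence of Brauer-Tuan type for the characters on which a class sum is a unit. -/

set_option autoImplicit false
set_option linter.unusedSectionVars false

namespace JT
open Cfsg H8 H2 L Subgroup MQ
open scoped Classical

variable {G : Type*} [Group G] [Fintype G] {r x : G} {q : ℕ} [Fact q.Prime]

/-- the central character of the class sum of `r` -/
noncomputable def wc (r : G) (χ : IrrCharacter G) : ℂ := (Cx r).index * χ.1 r / deg χ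

/-- `1` if the class sum of `r` acts as a unit, `0` otherwise -/
noncomputable def fl (q : ℕ) [Fact q.Prime] (r : G) (χ : IrrCharacter G) : ℤ :=
  if MM q (wc r χ) then 0 else 1

theorem wc_eq (r : G) : wc r = om fun g => if IsConj r g then 1 else 0 := by
  funext χ
  rw [wc, om, sum_indicator_mul (irr_class χ), ← index_centralizer_eq, deg_eq]

theorem II_wc (χ : IrrCharacter G) : II q (wc r χ) := by
  rw [wc_eq]
  refine II_om_of_isIntegral (isClassFunction_indicator r) (fun g => ?_) χ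
  split_ifs
  exacts [isIntegral_one, isIntegral_zero]

theorem IZ_fl : IZ q fun χ => (fl q r χ : ℂ) := by
  have h : IZ q (wc r) := by
    rw [wc_eq]
    exact IZ_om (isClassFunction_indicator r) fun g => II_ite II_one II_zero
  have := (h.exists_idem II_wc).1
  convert this using 2 with χ
  unfold fl
  split_ifs <;> simp

theorem bt {p n a m : ℕ} [Fact p.Prime] {h : DefOne p x} (T : Gen h n) (hV : h.V = ⊥)
    (hr : ¬ p ∣ orderOf r) (hG : Nat.card G = q ^ a * m) :
    (q : ℤ) ^ a ∣ fl q r (one1 G) + ∑ j, fl q r (T.c j) * T.q j + fl q r T.E * T.q0 := by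
  have h1 := IZ_fl (q := q) (r := r) x⁻¹
  rw [FF, inv_inv, T.sum_irr _ fun χ a1 a2 a3 => by
    have := T.other' hV a1 a2 a3 (i := 1) one_ne_zero
    rw [xp_one] at this
    rw [this, mul_zero]] at h1
  have h2 : ∑ θ ∈ T.X, θ.1 1 * (fl q r θ : ℂ) * θ.1 x = (fl q r T.E * T.q0 : ℤ) := by
    have := T.valX 1 one_ne_zero 1 (one_mem _)
    rw [xp_one, mul_one] at this
    push_cast
    rw [← this, Finset.sum_mul, Finset.mul_sum]
    refine Finset.sum_congr rfl fun θ hθ => ?_
    have e : fl q r θ = fl q r T.E := by rw [fl, fl, wc, wc, T.reg θ hθ r hr, T.deg_X hθ]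
    rw [deg_eq, e, T.deg_X hθ]; ring
  have h3 : ∀ j, (T.c j).1 1 * (fl q r (T.c j) : ℂ) * (T.c j).1 x =
      (fl q r (T.c j) * T.q j : ℤ) := fun j => by
    rw [deg_eq, T.val_x]; push_cast; ring
  simp only [h2, h3] at h1
  refine D3.pow_dvd_of_II ((II_natCast m).mul h1) ?_
  have h0 : (Nat.card G : ℂ) ≠ 0 := card_ne_zero_complex
  rw [← mul_assoc ((q : ℂ) ^ a), ← Nat.cast_pow, ← Nat.cast_mul, ← hG, mul_inv_cancel_left₀ h0]
  simp [one1]

theorem fl_one (h : q ∣ (Cx r).index) : fl q r (one1 G) = 0 := by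
  rw [fl, if_pos]
  rw [wc, deg_one1]
  simpa [one1] using MM_natCast_iff.2 h

theorem fl_cases {p a : ℕ} [Fact p.Prime] (hp : DefOne p r) (h : q ^ a ∣ (Cx r).index)
    (χ : IrrCharacter G) : fl q r χ = 0 ∨ fl q r χ = 1 ∧ q ^ a ∣ deg χ ∧ ¬ p ∣ deg χ := by
  by_cases hM : MM q (wc r χ)
  · exact .inl (if_pos hM)
  refine .inr ⟨if_neg hM, ?_, fun e => hM ?_⟩
  · have hU := (II_wc χ).UU hM
    obtain ⟨k, hk⟩ := h
    have d0 : (deg χ : ℂ) ≠ 0 := by exact_mod_cast (deg_pos χ).ne'
    have := D3.pow_dvd_of_II (p := q) (k := a) (z := deg χ) (((II_natCast k).mul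
      (II_of_isIntegral (char_isIntegral (irr_isCharacter χ.2) r))).mul hU.inv.II) (by
        have e : wc r χ * deg χ = q ^ a * (k * χ.1 r) := by
          rw [wc, div_mul_cancel₀ _ d0, hk]; push_cast; ring
        rw [← mul_assoc, ← e, mul_comm (wc r χ), mul_inv_cancel_right₀ hU.ne_zero]; simp)
    exact_mod_cast this
  · rw [wc, irr_eq_zero_of_dvd_deg hp.2 χ e hp.ord.symm.dvd]
    simpa using MM_zero

theorem fl_eq_one {χ : IrrCharacter G} {s : ℤ} (hs : s = 1 ∨ s = -1) (hχ : χ.1 r = s) {k : ℕ}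
    (hk : (Cx r).index = deg χ * k) (hq : ¬ q ∣ k) : fl q r χ = 1 := by
  refine if_neg fun hM => hq ?_
  have d0 : (deg χ : ℂ) ≠ 0 := by exact_mod_cast (deg_pos χ).ne'
  have e : wc r χ = (k * s : ℤ) := by
    rw [wc, hk, hχ]; push_cast; field_simp
  rw [e, MM_intCast_iff] at hM
  rcases hs with rfl | rfl
  · exact_mod_cast (by simpa using hM : (q : ℤ) ∣ k)
  · exact_mod_cast (by simpa using hM : (q : ℤ) ∣ k)

/-- counting the values of a finite sequence -/
theorem exists_cnt {α : Type*} [DecidableEq α] {n : ℕ} (g : Fin n → α) (l : List α)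
    (hl : l.Nodup) (hg : ∀ j, g j ∈ l) : ∃ N : α → ℕ, (∀ j, 1 ≤ N (g j)) ∧
      ∀ F : α → ℤ, ∑ j, F (g j) = (l.map fun a => (N a : ℤ) * F a).sum := by
  refine ⟨fun a => (Finset.univ.filter fun j => g j = a).card,
    fun j => Finset.card_pos.2 ⟨j, by simp⟩, fun F => ?_⟩
  rw [← List.sum_toFinset _ hl, ← Finset.sum_fiberwise_of_maps_to (g := g)
    fun j _ => List.mem_toFinset.2 (hg j)]
  refine Finset.sum_congr rfl fun a _ => ?_
  rw [Finset.sum_congr rfl fun j hj => by rw [(Finset.mem_filter.1 hj).2]]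
  simp

end JT
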