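import Cfsg.Agent.JT.Cz

/-! Simple groups of order 50232960: the principal 5-block for an automizer of order 2. -/

set_option autoImplicit false
set_option linter.unusedSectionVars false

namespace JT
open Cfsg H8 H2 Subgroup MQ

variable {G : Type*} [Group G] [Fintype G] {r x y : G}

/-- degrees modulo a self-centralizing prime -/
theorem deg_mod {p : ℕ} [hp : Fact p.Prime] (h : DefOne p x) (hV : h.V = ⊥) {n : ℕ}
    (he : Nat.card h.H = n + 1) (χ : IrrCharacter G) :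
    (p : ℤ) ∣ deg χ ∨ (p : ℤ) ∣ deg χ - 1 ∨ (p : ℤ) ∣ deg χ + 1 ∨ (p : ℤ) ∣ deg χ + (n + 1) ∨
      (p : ℤ) ∣ deg χ - (n + 1) := by
  obtain ⟨T⟩ := exists_gen h he
  by_cases h1 : χ = one1 G
  · rw [h1, deg_one1]; simp
  by_cases h2 : ∃ j, T.c j = χ
  · obtain ⟨j, rfl⟩ := h2
    have := T.mod j
    rcases T.s_eq j with e | e <;> rw [e] at this
    · exact .inr (.inl (by simpa using this))
    · exact .inr (.inr (.inl (by rw [← dvd_neg]; simpa [sub_eq_add_neg, add_comm, add_assoc, add_left_comm] using this)))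
  by_cases h3 : χ ∈ T.X
  · have := T.mod0
    rw [← T.deg_X h3] at this
    rcases T.s0_eq with e | e <;> rw [e] at this
    · exact .inr (.inr (.inr (.inl (by simpa using this))))
    · exact .inr (.inr (.inr (.inr (by rw [← dvd_neg]; simpa [sub_eq_add_neg, add_comm, add_assoc, add_left_comm] using this))))
  · have := T.other' hV h1 (not_exists.1 h2) h3 (i := 1) one_ne_zero
    rw [xp_one] at this
    have := dvd_char_sub p (irr_isCharacter χ.2) (k := 1) (u := x) (y := 1)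
      (by rw [pow_one, ← h.ord, pow_orderOf_eq_one]) (Commute.one_right x) (a := 0) (b := deg χ)
      (by rw [mul_one, this]; simp) (by rw [deg_eq]; simp)
    exact .inl (by simpa using this)

/-- the degree condition coming from the primes 17 and 19 -/
def Ty (G : Type*) [Group G] [Fintype G] : Prop := ∀ χ : IrrCharacter G,
  (deg χ % 19 = 0 ∨ deg χ % 19 = 1 ∨ deg χ % 19 = 18 ∨ deg χ % 19 = 9 ∨ deg χ % 19 = 10) ∧
  (deg χ % 17 = 0 ∨ deg χ % 17 = 1 ∨ deg χ % 17 = 16 ∨ deg χ % 17 = 8 ∨ deg χ % 17 = 9)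

theorem ty_of [Fact (Nat.Prime 19)] [Fact (Nat.Prime 17)] (hx : DefOne 19 x) (vx : hx.V = ⊥)
    (ex : Nat.card hx.H = 9) (hy : DefOne 17 y) (vy : hy.V = ⊥) (ey : Nat.card hy.H = 8) :
    Ty G := fun χ => by
  have h1 := deg_mod hx vx (n := 8) ex χ
  have h2 := deg_mod hy vy (n := 7) ey χ
  constructor <;> omega

/-- the divisors of `|G| / 5` -/
def dv : List ℕ := (List.range 8).flatMap fun a => (List.range 6).flatMap fun b =>
  [2 ^ a * 3 ^ b, 2 ^ a * 3 ^ b * 17, 2 ^ a * 3 ^ b * 19, 2 ^ a * 3 ^ b * 323]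

theorem mem_dv {n : ℕ} (h : n ∣ 10046592) : n ∈ dv := by
  have : (10046592 : ℕ) = 2 ^ 7 * (3 ^ 5 * (17 * 19)) := by norm_num
  rw [this] at h
  obtain ⟨a, n1, ha, h1, rfl⟩ := exists_dvd_and_dvd_of_dvd_mul h
  obtain ⟨b, n2, hb, h2, rfl⟩ := exists_dvd_and_dvd_of_dvd_mul h1
  obtain ⟨c, d, hc, hd, rfl⟩ := exists_dvd_and_dvd_of_dvd_mul h2
  obtain ⟨i, hi, rfl⟩ := (Nat.dvd_prime_pow Nat.prime_two).1 ha
  obtain ⟨j, hj, rfl⟩ := (Nat.dvd_prime_pow Nat.prime_three).1 hb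
  simp only [dv, List.mem_flatMap, List.mem_range]
  refine ⟨i, by omega, j, by omega, ?_⟩
  rcases (Nat.dvd_prime (by norm_num)).1 hc with rfl | rfl <;>
    rcases (Nat.dvd_prime (by norm_num)).1 hd with rfl | rfl <;> simp [mul_assoc]

theorem c5_chk : ∀ d ∈ dv, d ≠ 1 → (d % 19 = 0 ∨ d % 19 = 1 ∨ d % 19 = 18 ∨ d % 19 = 9 ∨ d % 19 = 10) →
    (d % 17 = 0 ∨ d % 17 = 1 ∨ d % 17 = 16 ∨ d % 17 = 8 ∨ d % 17 = 9) →
    (d % 5 = 1 → 10046592 % (d + 1) ≠ 0) ∧
    (d % 5 = 4 → 10046592 % (d - 1) = 0 → d = 9 ∨ d = 324) := by decide +kernel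

theorem v_chk : ∀ v ∈ List.range 97, 96 % v = 0 → 2 * v % 5 = 2 →
    v = 6 ∨ v = 96 ∨ v = 1 ∨ v = 16 := by decide +kernel

theorem six_sq {n m : ℤ} (h : 6 * n ^ 2 = m ^ 2) : n = 0 := by
  by_contra h0
  have h1 : (n : ℚ) ≠ 0 := by exact_mod_cast h0
  have : IsSquare ((6 : ℕ) : ℚ) := ⟨m / n, by
    have : (6 : ℚ) * n ^ 2 = m ^ 2 := by exact_mod_cast h
    field_simp
    push_cast
    linarith⟩
  exact absurd (Rat.isSquare_natCast_iff.1 this) (by decide +kernel)

variable [IsSimpleGroup G] (hN : Nat.card G = 50232960)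
include hN

theorem c324 {h : DefOne 5 r} (T : Gen h 1) (ty : Ty G) : deg (T.c 0) = 324 := by
  have nc : ¬ IsMulCommutative G := not_comm_of_card_not_prime (by rw [hN]; norm_num)
  have pf := commutator_eq_top_of_simple nc
  obtain ⟨h1, h2, h3, h4, h5⟩ := loc_num nc h (m := 10046592) hN
  have i1 : (Cx r).index ∣ 10046592 := ⟨Nat.card h.V, by rw [h.index_Cx, h1]⟩
  have d1 := (T.dvd 0).trans i1
  have d2 := T.dvd0.trans i1
  have s2 := T.sum_deg
  rw [Fin.sum_univ_one] at s2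
  unfold Gen.q Gen.q0 at s2
  have m1 := T.mod 0
  have t1 := ty (T.c 0)
  have t2 := ty T.E
  have k := c5_chk _ (mem_dv d1) (by have := two_le_deg pf (T.ne_one 0); omega) t1.1 t1.2
  have d3 := Nat.mod_eq_zero_of_dvd d2
  have p1 := deg_pos (T.c 0)
  have p2 := deg_pos T.E
  rcases T.s_eq 0 with e | e <;> rcases T.s0_eq with e' | e' <;> rw [e, e'] at s2 <;>
    rw [e] at m1
  · omega
  · exact absurd (by rwa [show deg T.E = deg (T.c 0) + 1 by omega] at d3) (k.1 (by omega))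
  · rcases k.2 (by omega) (by rwa [show deg T.E = deg (T.c 0) - 1 by omega] at d3) with k | k
    · omega
    · exact k
  · omega

theorem sgn324 {h : DefOne 5 r} (T : Gen h 1) (hd : deg (T.c 0) = 324) :
    T.s 0 = -1 ∧ T.s0 = 1 ∧ deg T.E = 323 := by
  have s1 : T.s 0 = -1 := by
    have := T.mod 0
    rw [hd] at this
    rcases T.s_eq 0 with e | e <;> rw [e] at this <;> omega
  have s2 := T.sum_deg
  rw [Fin.sum_univ_one] at s2
  unfold Gen.q Gen.q0 at s2
  rw [s1, hd] at s2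
  rcases T.s0_eq with e | e <;> rw [e] at s2 <;> omega

/-- the involution formula -/
theorem inv_eq {h : DefOne 5 r} (T : Gen h 1) (hd : deg (T.c 0) = 324) {z : G}
    (hz : orderOf z = 2) : ∃ a : ℤ, (T.c 0).1 z = a ∧ T.E.1 z = (a - 1 : ℤ) ∧ 4 ∣ a ∧ |a| < 324 ∧
      96 * Nat.card h.V * (324 - a) ^ 2 = (kk h z * Nat.card (Cx z)) ^ 2 ∧
      1 + a * a + 2 * ((a - 1) * (a - 1)) ≤ Nat.card (Cx z) := by
  have nc : ¬ IsMulCommutative G := not_comm_of_card_not_prime (by rw [hN]; norm_num)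
  have pf := commutator_eq_top_of_simple nc
  have z2 : z ^ 2 = 1 := hz ▸ pow_orderOf_eq_one z
  have z1 : z ≠ 1 := by rintro rfl; simp at hz
  have o : ¬ 5 ∣ orderOf z := by rw [hz]; decide
  obtain ⟨s1, s0, dE⟩ := sgn324 hN T hd
  obtain ⟨a, a1, a2⟩ := inv_val pf (T.c 0) z2
  obtain ⟨b, b1, -⟩ := inv_val pf T.E z2
  have a3 := irr_int_abs_lt nc (T.ne_one 0) z1 a1
  have ha : ∀ j, (T.c j).1 z = (fun _ => a) j := fun j => by rwa [Subsingleton.elim j 0]
  have l := T.lin' o ha b1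
  have q := T.sq_le o ha b1
  have cX : T.X.card = 2 := by have := T.cardX; omega
  rw [Fin.sum_univ_one] at l q
  rw [s1, s0] at l
  obtain rfl : b = a - 1 := by omega
  have p := T.prs_eq o o
  rw [prs_kk h (by norm_num) z2 z2, Fin.sum_univ_one, s1, s0, a1, b1, hd, dE, hN] at p
  have c0 := (Cx z).card_mul_index
  rw [hN] at c0
  rw [hd] at a2 a3
  refine ⟨a, a1, b1, by omega, a3, ?_, by rw [cX] at q; exact_mod_cast q⟩
  generalize kk h z = k at *
  generalize (Cx z).index = I at *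
  generalize Nat.card (Cx z) = c at *
  generalize Nat.card h.V = v at *
  have c1 : (c : ℂ) * I = 50232960 := by exact_mod_cast c0
  have : (96 * v * (324 - a) ^ 2 : ℂ) = (k * c) ^ 2 := by
    push_cast at p
    have h1 : (c : ℂ) ^ 2 * (5 * k * k) = (c * I) ^ 2 * v / 50232960 *
      (1 + -1 * (a * a / 324) + 1 * ((a - 1) * (a - 1) / 323)) := by rw [p]; ring
    rw [c1] at h1
    linear_combination (-1 / 5 : ℂ) * h1
  exact_mod_cast this

theorem v5 {h : DefOne 5 r} (he : Nat.card h.H = 2) (T : Gen h 1) (hd : deg (T.c 0) = 324) :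
    Nat.card h.V = 6 ∨ Nat.card h.V = 96 := by
  have nc : ¬ IsMulCommutative G := not_comm_of_card_not_prime (by rw [hN]; norm_num)
  obtain ⟨h1, h2, -⟩ := loc_num nc h (m := 10046592) hN
  have i1 : (Cx r).index * Nat.card h.V = 10046592 := by rw [h.index_Cx, h1]
  obtain ⟨m, hm⟩ : 324 * 323 ∣ (Cx r).index := Nat.Coprime.mul_dvd_of_dvd_of_dvd (by norm_num)
    (hd ▸ T.dvd 0) ((sgn324 hN T hd).2.2 ▸ T.dvd0)
  have h3 : m * Nat.card h.V = 96 := by rw [hm, mul_assoc] at i1; omega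
  have h4 := congrArg (· % 5) h1
  simp only [mul_assoc] at h4
  rw [Nat.mul_mod, h2, one_mul, Nat.mod_mod, he] at h4
  obtain ⟨z, hz⟩ := exists_prime_orderOf_dvd_card' (G := G) 2 (by rw [hN]; norm_num)
  obtain ⟨a, -, -, -, a3, e, -⟩ := inv_eq hN T hd hz
  have a4 := abs_lt.1 a3
  rcases v_chk _ (List.mem_range.2 (Nat.lt_succ_of_le (Nat.le_of_dvd (by norm_num)
    (Dvd.intro_left _ h3)))) (Nat.mod_eq_zero_of_dvd (Dvd.intro_left _ h3)) h4 with k | k | k | k
  · exact .inl k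
  · exact .inr k
  · rw [k] at e
    have := six_sq (n := 4 * (324 - a)) (by rw [← e]; push_cast; ring)
    omega
  · rw [k] at e
    have := six_sq (n := 16 * (324 - a)) (by rw [← e]; push_cast; ring)
    omega

end JT
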