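import Cfsg.Agent.MQ.Pc
import Cfsg.Agent.MQ.Lb

/-! Simple groups of order 50232960: the centralizer of a 2-central involution has order 1920. -/

set_option autoImplicit false
set_option linter.unusedSectionVars false

namespace JT
open Cfsg H8 H2 Subgroup MQ

variable {G : Type*} [Group G] [Fintype G] [IsSimpleGroup G] {r z : G}

theorem cz_chk : ∀ k ∈ List.range 7, ∀ m ∈ List.range 122, 0 < k → 392445 % m = 0 → m % 19 ≠ 0 →
    16 * k * m % 3 = 0 → 1 + (324 - (16 * k * m / 3 : ℕ) : ℤ) * (324 - (16 * k * m / 3 : ℕ)) +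
      2 * ((323 - (16 * k * m / 3 : ℕ)) * (323 - (16 * k * m / 3 : ℕ))) ≤ 128 * m →
    m = 15 ∧ k = 4 := by decide +kernel

/-- the centralizer of a 2-central involution -/
theorem cz (hN : Nat.card G = 50232960) {h : DefOne 5 r} (hv : Nat.card h.V = 6) (T : Gen h 1)
    (hd : deg (T.c 0) = 324) (hz : orderOf z = 2) (h128 : 128 ∣ Nat.card (Cx z))
    (h19 : ¬ 19 ∣ Nat.card (Cx z)) :
    Nat.card (Cx z) = 1920 ∧ kk h z = 4 ∧ (T.c 0).1 z = 4 := by
  have nc : ¬ IsMulCommutative G := not_comm_of_card_not_prime (by rw [hN]; norm_num)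
  have pf := commutator_eq_top_of_simple nc
  have z2 : z ^ 2 = 1 := hz ▸ pow_orderOf_eq_one z
  have z1 : z ≠ 1 := by rintro rfl; simp at hz
  have o : ¬ 5 ∣ orderOf z := by rw [hz]; decide
  have s1 : T.s 0 = -1 := by
    have := T.mod 0
    rw [hd] at this
    rcases T.s_eq 0 with e | e <;> rw [e] at this <;> omega
  have s2 := T.sum_deg
  rw [Fin.sum_univ_one] at s2
  obtain ⟨s0, dE⟩ : T.s0 = 1 ∧ deg T.E = 323 := by
    unfold Gen.q Gen.q0 at s2
    rw [s1, hd] at s2
    rcases T.s0_eq with e | e <;> rw [e] at s2 <;> omega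
  obtain ⟨a, a1, -⟩ := inv_val pf (T.c 0) z2
  obtain ⟨b, b1, -⟩ := inv_val pf T.E z2
  have a3 := abs_lt.1 (irr_int_abs_lt nc (T.ne_one 0) z1 a1)
  have ha : ∀ j, (T.c j).1 z = (fun _ => a) j := fun j => by rwa [Subsingleton.elim j 0]
  have l := T.lin' o ha b1
  have q := T.sq_le o ha b1
  have cX : T.X.card = 2 := by have := T.cardX; omega
  rw [Fin.sum_univ_one] at l q
  rw [s1, s0] at l
  obtain rfl : b = a - 1 := by omega
  have p := T.prs_eq o o
  rw [prs_kk h (by norm_num) z2 z2, Fin.sum_univ_one, s1, s0, a1, b1, hd, dE, hv, hN] at p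
  have c0 := (Cx z).card_mul_index
  rw [hN] at c0
  obtain ⟨m, hm⟩ := h128
  have k6 := hv ▸ kk_le h z
  generalize kk h z = k at *
  generalize (Cx z).index = I at *
  rw [hm] at c0 q h19 ⊢
  have c1 : (m : ℂ) * I = 392445 := by exact_mod_cast (by nlinarith : m * I = 392445)
  have e : ((3 * (324 - a)) ^ 2 : ℤ) = (16 * k * m) ^ 2 := by
    have : ((3 * (324 - a)) ^ 2 : ℂ) = (16 * k * m) ^ 2 := by
      push_cast at p
      have h1 : (m : ℂ) ^ 2 * (5 * k * k) = (m * I) ^ 2 * 6 / 50232960 *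
        (1 + -1 * (a * a / 324) + 1 * ((a - 1) * (a - 1) / 323)) := by rw [p]; ring
      rw [c1] at h1
      linear_combination (-256 / 5 : ℂ) * h1
    exact_mod_cast this
  have e' : 3 * (324 - a) = 16 * k * m :=
    (pow_left_inj₀ (by omega) (by positivity) two_ne_zero).1 e
  have e2 : ((16 * k * m : ℕ) : ℤ) = 3 * (324 - a) := by push_cast; omega
  have k0 : 0 < k := Nat.pos_of_ne_zero fun c => by rw [c] at e'; simp at e'; omega
  have m1 : m < 122 := by
    have : m ≤ k * m := Nat.le_mul_of_pos_left _ k0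
    rw [mul_assoc] at e2
    omega
  have e3 : ((16 * k * m / 3 : ℕ) : ℤ) = 324 - a := by omega
  obtain ⟨rfl, rfl⟩ := cz_chk k (List.mem_range.2 (by omega)) m (List.mem_range.2 m1) k0
    (Nat.mod_eq_zero_of_dvd ⟨I, by nlinarith⟩) (by omega) (by omega) (by
      rw [e3, cX] at *
      push_cast at q
      nlinarith)
  refine ⟨rfl, rfl, ?_⟩
  rw [a1, show a = 4 by omega]; norm_num

end JT
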