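import Cfsg.Agent.JT.B4

/-! Simple groups of order 50232960: two of the candidate principal 5-blocks are impossible. -/

set_option autoImplicit false
set_option linter.unusedSectionVars false

namespace JT
open Cfsg H8 H2 Subgroup MQ

variable {G : Type*} [Group G] [Fintype G] {r x y : G}

/-- the integers `≡ e (mod 4)` of absolute value at most `B` -/
def rg4 (B : ℕ) (e : ℤ) : List ℤ :=
  ((List.range (2 * B + 1)).map fun i : ℕ => (i : ℤ) - B).filter fun a => (a - e) % 4 == 0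

theorem mem_rg4 {B : ℕ} {e a : ℤ} (h1 : |a| ≤ B) (h2 : 4 ∣ a - e) : a ∈ rg4 B e := by
  have := abs_le.1 h1
  simp only [rg4, List.mem_filter, List.mem_map, List.mem_range, beq_iff_eq]
  exact ⟨⟨(a + B).toNat, by omega, by omega⟩, by omega⟩

/-- not a square -/
def nsq (n : ℤ) : Bool := n < 0 || Nat.sqrt n.toNat * Nat.sqrt n.toNat != n.toNat

theorem nsq_sq (m : ℕ) : nsq ((m : ℤ) ^ 2) = false := by
  have : ((m : ℤ) ^ 2).toNat = m * m := by rw [← Nat.cast_pow, Int.toNat_natCast, pow_two]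
  simp [nsq, this]

theorem chkD : ∀ v ∈ [(3 : ℤ), 8, 48], ∀ a ∈ rg4 57 969, ∀ b ∈ rg4 20 324, ∀ c ∈ rg4 38 646,
    nsq (v * (10046592 - 10368 * a * a - 31008 * b * b + 15552 * c * c +
      15552 * (a + b - c - 1) * (a + b - c - 1))) = true := by decide +kernel

theorem chkC8 : ∀ a ∈ rg4 152 2584, ∀ b ∈ rg4 20 324, ∀ c ∈ rg4 11 171,
    nsq (8 * (10046592 - 3888 * a * a - 31008 * b * b + 58752 * c * c +
      3672 * (a + b - c - 1) * (a + b - c - 1))) = true := by decide +kernel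

theorem chkC3 : ∀ a ∈ rg4 152 2584, ∀ b ∈ rg4 20 324, ∀ c ∈ rg4 11 171,
    nsq (3 * (10046592 - 3888 * a * a - 31008 * b * b + 58752 * c * c +
      3672 * (a + b - c - 1) * (a + b - c - 1))) = false → ∀ k ∈ List.range 4,
      ∀ i ∈ dvs 128, ∀ j ∈ dvs 243,
      1 + (a * a + b * b + c * c + (a + b - c - 1) * (a + b - c - 1)) ≤ (i * j : ℕ) →
      ((k * (i * j) : ℕ) : ℤ) ^ 2 = 3 * (10046592 - 3888 * a * a - 31008 * b * b + 58752 * c * c +
      3672 * (a + b - c - 1) * (a + b - c - 1)) → (2584 : ℤ) ∣ (50232960 / (i * j) : ℕ) * a →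
      (324 : ℤ) ∣ (50232960 / (i * j) : ℕ) * b → (171 : ℤ) ∣ (50232960 / (i * j) : ℕ) * c →
      ¬ (2736 : ℤ) ∣ (50232960 / (i * j) : ℕ) * (a + b - c - 1) := by decide +kernel

theorem exists_conj_V {p : ℕ} [hp : Fact p.Prime] (h : DefOne p x) {z : G}
    (hz' : ¬ p ∣ orderOf z) (hd : p ∣ Nat.card (Cx z)) : ∃ g : G, g⁻¹ * z * g ∈ h.V := by
  obtain ⟨y, hy⟩ := exists_prime_orderOf_dvd_card' (G := Cx z) p hd
  obtain ⟨P, hP⟩ := h.exists_sylow
  obtain ⟨g, hg⟩ := H8.exists_conj_mem_sylow P (y := y) (k := 1) (by rw [orderOf_coe, hy, pow_one])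
  rw [hP, h.mem_zpowers_iff] at hg
  obtain ⟨i, hi⟩ := hg
  have hi0 : i ≠ 0 := by
    rintro rfl
    rw [xp_zero] at hi
    have : y = 1 := Subtype.ext (by simpa [mul_assoc, inv_mul_eq_one] using hi)
    rw [this, orderOf_one] at hy
    exact hp.out.one_lt.ne hy
  have h1 : Commute (g⁻¹ * z * g) (xp x i) := by
    rw [← hi]
    show _ = _
    calc g⁻¹ * z * g * (g⁻¹ * y * g) = g⁻¹ * (z * y) * g := by group
      _ = g⁻¹ * (y * z) * g := by rw [mem_Cx.1 y.2]
      _ = _ := by group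
  exact ⟨g, h.mem_V'.2 ⟨mem_Cx_of_xp h hi0 h1, by
    have := MulEquiv.orderOf_eq (MulAut.conj g⁻¹) z
    rw [MulAut.conj_apply, inv_inv] at this
    rwa [this]⟩⟩

theorem full_sq_le {p n : ℕ} [Fact p.Prime] {h : DefOne p r} (F : Full h n) {g : G}
    {a : Fin n → ℤ} (ha : ∀ j, (F.c j).1 g = a j) : 1 + ∑ j, a j * a j ≤ Nat.card (Cx g) := by
  classical
  have h1 := sum_normSq g
  have h2 : ∑ χ ∈ insert (one1 G) (Finset.univ.image F.c), Complex.normSq (χ.1 g) ≤ _ :=
    (Finset.sum_le_sum_of_subset_of_nonneg (Finset.subset_univ _)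
      fun _ _ _ => Complex.normSq_nonneg _).trans_eq h1
  rw [Finset.sum_insert (by simpa using F.ne_one), Finset.sum_image F.inj.injOn] at h2
  simp only [ha, Pi.one_apply, map_one, Complex.normSq_intCast] at h2
  exact_mod_cast h2

namespace Loc
variable [IsSimpleGroup G] (L : Loc x y)
include L

/-- an involution inverting `y` -/
theorem ex_t : ∃ t, orderOf t = 2 ∧ t ∈ Nx y ∧ t ∉ Cx y := by
  obtain ⟨t, ht⟩ := exists_prime_orderOf_dvd_card' (G := Nx y) 2 (by
    rw [L.hy.card_Nx, L.ey]; exact Dvd.dvd.mul_left (by norm_num) _)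
  rw [← orderOf_coe] at ht
  refine ⟨t, ht, t.2, fun e => ?_⟩
  have := orderOf_dvd_natCard _ e
  rw [L.hy.card_Cx, L.vy, card_bot, ht] at this
  omega

theorem tb {t : G} (hn : t ∈ Nx y) (hn' : t ∉ Cx y) (χ : IrrCharacter G) {b : ℤ}
    (hb : χ.1 t = b) : 17 * |b| ≤ |(deg χ : ℤ) + sgD 17 8 (deg χ)| := by
  classical
  have h2 := norm_sum_coset_le (irr_isCharacter χ.2) (zpowers y) hn
  have h3 : ∑ i : ZMod 17, χ.1 (xp y i) = ((deg χ : ℤ) + sgD 17 8 (deg χ) : ℤ) := by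
    rw [Fintype.sum_eq_add_sum_subtype_ne _ 0, L.sy, xp_zero, deg_eq]; push_cast; rfl
  rw [sum_coset L.hy χ hn hn', sum_zpowers L.hy χ.1, h3, hb, norm_mul, Complex.norm_intCast,
    Complex.norm_intCast, Complex.norm_natCast] at h2
  exact_mod_cast h2

/-- the column of an involution in the principal 5-block -/
theorem col {h : DefOne 5 r} (F : Full h 4) {t : G} (ht : orderOf t = 2) {d : Fin 4 → ℕ}
    (hd : ∀ j, deg (F.c j) = d j) {s : Fin 4 → ℤ} (hs : ∀ j, F.s j = s j) {w : Fin 4 → ℤ}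
    (hw : ∀ j, w j * d j = 10046592) : ∃ a : Fin 4 → ℤ, (∀ j, (F.c j).1 t = a j ∧ 4 ∣ a j - d j) ∧
      1 + ∑ j, s j * a j = 0 ∧ ((kk h t * Nat.card (Cx t) : ℕ) : ℤ) ^ 2 =
        Nat.card h.V * (10046592 + ∑ j, s j * (w j * a j * a j)) := by
  have z2 : t ^ 2 = 1 := ht ▸ pow_orderOf_eq_one t
  choose a a1 a2 using fun j => inv_val L.perf (F.c j) z2
  have l := Full.lin' F (g := t) (by rw [ht]; decide) a1
  have p := Full.prs_eq F t t
  rw [prs_kk h (by norm_num) z2 z2, L.hN] at p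
  simp only [a1, hs, hd] at p l a2
  refine ⟨a, fun j => ⟨a1 j, a2 j⟩, l, ?_⟩
  have c0 := (Cx t).card_mul_index
  rw [L.hN] at c0
  generalize kk h t = k at *
  generalize (Cx t).index = I at *
  generalize Nat.card (Cx t) = c at *
  generalize Nat.card h.V = v at *
  have c1 : (c : ℂ) * I = 50232960 := by exact_mod_cast c0
  have e : ∀ j, (a j * a j / d j : ℂ) = w j * a j * a j / 10046592 := fun j => by
    have h1 : (w j : ℂ) * d j = 10046592 := by exact_mod_cast hw j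
    have h2 : (d j : ℂ) ≠ 0 := fun e => by rw [e] at h1; norm_num at h1
    field_simp
    linear_combination (-(a j : ℂ) ^ 2) * h1
  simp only [e, Fin.sum_univ_four] at p
  have : ((k * c : ℕ) : ℂ) ^ 2 = v * (10046592 + ∑ j, s j * (w j * a j * a j : ℂ)) := by
    rw [Fin.sum_univ_four]
    push_cast at p ⊢
    have h1 : (c : ℂ) ^ 2 * (5 * k * k) = (c * I) ^ 2 * v / 50232960 *
      (1 + (s 0 * (w 0 * a 0 * a 0 / 10046592) + s 1 * (w 1 * a 1 * a 1 / 10046592) +
        s 2 * (w 2 * a 2 * a 2 / 10046592) + s 3 * (w 3 * a 3 * a 3 / 10046592))) := by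
      rw [p]; ring
    rw [c1] at h1
    linear_combination (1 / 5 : ℂ) * h1
  exact_mod_cast this

omit L in
theorem sd_of {h : DefOne 5 r} (F : Full h 4) {q : Fin 4 → ℤ}
    (hF : ∀ j, F.s j * deg (F.c j) = q j) (j : Fin 4) :
    F.s j = (q j).sign ∧ deg (F.c j) = (q j).natAbs := by
  have h1 : ((deg (F.c j) : ℕ) : ℤ).sign = 1 :=
    Int.sign_eq_one_iff_pos.2 (by exact_mod_cast deg_pos _)
  rw [← hF j]
  rcases F.s_eq j with e | e <;> simp [e, h1]

theorem not_D {h : DefOne 5 r} (F : Full h 4)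
    (hF : ∀ j, F.s j * deg (F.c j) = ![-969, -324, 646, 646] j)
    (hv : Nat.card h.V ∈ [3, 8, 48]) : False := by
  obtain ⟨t, ht, hn, hn'⟩ := L.ex_t
  have hd : ∀ j, deg (F.c j) = ![969, 324, 646, 646] j := fun j => by
    rw [(sd_of F hF j).2]; revert j; decide
  obtain ⟨a, a1, l, e⟩ := L.col F ht hd (s := ![-1, -1, 1, 1])
    (fun j => by rw [(sd_of F hF j).1]; revert j; decide) (w := ![10368, 31008, 15552, 15552])
    (by decide)
  have b0 := L.tb hn hn' _ (a1 0).1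
  have b1 := L.tb hn hn' _ (a1 1).1
  have b2 := L.tb hn hn' _ (a1 2).1
  rw [hd] at b0 b1 b2
  have k := chkD (Nat.card h.V) (by simp at hv ⊢; omega) (a 0)
    (mem_rg4 (by simp [sgD] at b0 ⊢; omega) (a1 0).2) (a 1)
    (mem_rg4 (by simp [sgD] at b1 ⊢; omega) (a1 1).2) (a 2)
    (mem_rg4 (by simp [sgD] at b2 ⊢; omega) (a1 2).2)
  simp only [Fin.sum_univ_four, Matrix.cons_val] at l e
  have := nsq_sq (kk h t * Nat.card (Cx t))
  rw [e, show a 3 = a 0 + a 1 - a 2 - 1 by omega] at this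
  rw [← Bool.not_eq_true] at this
  exact this (by convert k using 2; ring)

theorem not_C {h : DefOne 5 r} (F : Full h 4)
    (hF : ∀ j, F.s j * deg (F.c j) = ![-2584, -324, 171, 2736] j)
    (hv : Nat.card h.V ∈ [3, 8]) : False := by
  obtain ⟨t, ht, hn, hn'⟩ := L.ex_t
  have hd : ∀ j, deg (F.c j) = ![2584, 324, 171, 2736] j := fun j => by
    rw [(sd_of F hF j).2]; revert j; decide
  obtain ⟨a, a1, l, e⟩ := L.col F ht hd (s := ![-1, -1, 1, 1])
    (fun j => by rw [(sd_of F hF j).1]; revert j; decide) (w := ![3888, 31008, 58752, 3672])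
    (by decide)
  have b0 := L.tb hn hn' _ (a1 0).1
  have b1 := L.tb hn hn' _ (a1 1).1
  have b2 := L.tb hn hn' _ (a1 2).1
  rw [hd] at b0 b1 b2
  have m0 : a 0 ∈ rg4 152 2584 := mem_rg4 (by simp [sgD] at b0 ⊢; omega) (a1 0).2
  have m1 : a 1 ∈ rg4 20 324 := mem_rg4 (by simp [sgD] at b1 ⊢; omega) (a1 1).2
  have m2 : a 2 ∈ rg4 11 171 := mem_rg4 (by simp [sgD] at b2 ⊢; omega) (a1 2).2
  simp only [Fin.sum_univ_four, Matrix.cons_val] at l e
  have a3 : a 3 = a 0 + a 1 - a 2 - 1 := by omega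
  have n := nsq_sq (kk h t * Nat.card (Cx t))
  rw [e, a3] at n
  simp only [List.mem_cons, List.not_mem_nil, or_false] at hv
  rcases hv with hv | hv
  · have t1 : t ≠ 1 := by rintro rfl; simp at ht
    have c5 : ¬ 5 ∣ Nat.card (Cx t) := fun c => by
      obtain ⟨g, hg⟩ := exists_conj_V h (by rw [ht]; decide) c
      have h1 := orderOf_dvd_natCard _ hg
      have := MulEquiv.orderOf_eq (MulAut.conj g⁻¹) t
      rw [MulAut.conj_apply, inv_inv] at this
      rw [this, ht, hv] at h1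
      omega
    have c17 := L.hy.not_dvd_card_Cx L.vy t1 (by rw [ht]; decide)
    have c19 := L.hx.not_dvd_card_Cx L.vx t1 (by rw [ht]; decide)
    have c0 := (Cx t).card_mul_index
    have h2 := card_subgroup_dvd_card (Cx t)
    rw [L.hN] at c0
    rw [L.hN, show 50232960 = 19 * (17 * (5 * (128 * 243))) from rfl] at h2
    obtain ⟨i, j, hi, hj, hc⟩ := exists_dvd_and_dvd_of_dvd_mul
      (((Nat.Prime.coprime_iff_not_dvd (by norm_num)).2 c5).symm.dvd_of_dvd_mul_left
      (((Nat.Prime.coprime_iff_not_dvd (by norm_num)).2 c17).symm.dvd_of_dvd_mul_left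
      (((Nat.Prime.coprime_iff_not_dvd (by norm_num)).2 c19).symm.dvd_of_dvd_mul_left h2)))
    have ix : (Cx t).index = 50232960 / (i * j) := by
      rw [← c0, ← hc, Nat.mul_div_cancel_left _ Nat.card_pos]
    have q := full_sq_le F fun j => (a1 j).1
    have dd := fun j => irr_deg_dvd_index_mul _ (a1 j).1
    simp only [hd, ix] at dd
    rw [Fin.sum_univ_four, a3, hc] at q
    have k3 := hv ▸ kk_le h t
    rw [hv, hc, a3] at e
    rw [hv] at n
    refine chkC3 _ m0 _ m1 _ m2 (by convert n using 2; push_cast; ring) (kk h t)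
      (List.mem_range.2 (by omega)) i (mem_dvs (by norm_num) hi) j (mem_dvs (by norm_num) hj) q
      (by rw [e]; push_cast; ring) (dd 0) (dd 1) (dd 2) (a3 ▸ dd 3)
  · rw [hv, ← Bool.not_eq_true] at n
    exact n (by convert chkC8 _ m0 _ m1 _ m2 using 2; push_cast; ring)

end Loc
end JT
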