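import Cfsg.Agent.MQ.Pc

/-! At most five involutions invert an element of order 5 with `e = 4`, `|V| = 3`. -/

set_option autoImplicit false
set_option linter.unusedSectionVars false

namespace JT
open Cfsg H8 H2 Subgroup MQ

variable {G : Type*} [Group G] [Fintype G] {r z : G}

theorem three_cases {V : Subgroup G} (hv : Nat.card V = 3) {u v : G} (hu : u ∈ V) (h : v ∈ V) :
    v ^ 3 = 1 ∧ (v = 1 ∨ u = 1 ∨ u = v ∨ u = v⁻¹) := by
  classical
  have e : v ^ 3 = 1 := by
    rw [← hv]; exact congrArg Subtype.val (pow_card_eq_one' (x := (⟨v, h⟩ : V)))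
  refine ⟨e, or_iff_not_imp_left.2 fun v1 => ?_⟩
  haveI : Fact (Nat.Prime 3) := ⟨by norm_num⟩
  have o : orderOf v = 3 := orderOf_eq_prime e v1
  rw [← eq_of_le_of_card_ge (zpowers_le.2 h) (by rw [hv, Nat.card_zpowers, o])] at hu
  obtain ⟨i, hi, rfl⟩ := Finset.mem_image.1 (mem_zpowers_iff_mem_range_orderOf.1 hu)
  rw [o, Finset.mem_range] at hi
  interval_cases i
  · simp
  · simp
  · exact .inr (.inr (eq_inv_of_mul_eq_one_left (by rw [← pow_succ, e])))

theorem u2sq : ((ZMod.unitOfCoprime 2 (by norm_num : Nat.Coprime 2 5) *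
    ZMod.unitOfCoprime 2 (by norm_num : Nat.Coprime 2 5) : (ZMod 5)ˣ) : ZMod 5) = -1 := by decide

theorem kk_le_one [IsSimpleGroup G] (h : DefOne 5 r) (he : Nat.card h.H = 4)
    (hv : Nat.card h.V = 3) (hz : z ^ 2 = 1) : MQ.kk h z ≤ 1 := by
  have sq : ∀ {a : G}, IsConj z a → a⁻¹ = a := fun ha => by
    obtain ⟨c, rfl⟩ := isConj_iff.1 ha
    exact inv_eq_of_mul_eq_one_right (by rw [conj_mul, ← pow_two, hz, mul_one, mul_inv_cancel])
  have top : h.H = ⊤ := eq_top_of_card_eq _ (by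
    rw [he, Nat.card_eq_fintype_card, ZMod.card_units])
  obtain ⟨n, hn⟩ : ZMod.unitOfCoprime 2 (by norm_num : Nat.Coprime 2 5) ∈ h.H := top ▸ mem_top _
  have n2 : (n * n : G) * r * (n * n : G)⁻¹ = r⁻¹ := by
    have := h.nu_spec (n * n)
    rw [map_mul, hn] at this
    refine this.trans ?_
    rw [u2sq,
      h.xp_neg, xp_one]
  have cv : ∀ a : G, a * r * a⁻¹ = r⁻¹ → ∀ v ∈ h.V, Commute a v := fun a ha v hv' => by
    obtain ⟨u, hu, e⟩ := h.exists_decomp (mul_mem_Cx ha n2)
    have c1 : Commute u v := by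
      rcases (three_cases hv hu hv').2 with rfl | rfl | rfl | rfl <;> simp
    have c2 : Commute (n * n : G) v := by
      have k : ∀ w : G, n * v * (n : G)⁻¹ = w → n * w * (n : G)⁻¹ = v → Commute (n * n : G) v :=
        fun w h1 h2 => by
          rw [← h1] at h2
          exact mul_inv_eq_iff_eq_mul.1 (by rw [← h2]; nth_rw 1 [h2]; group)
      rcases (three_cases hv (h.conj_mem_V n.2 hv') hv').2 with e | e | e | e
      · simp [e]
      · rw [conj_eq_one_iff.1 e]; simp
      · exact k _ e e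
      · exact k _ e (by rw [← conj_inv, e, inv_inv])
    have := ((h.commute_xp_V (h.kap (a * (n * n))) hv').mul_left c1)
    rw [← e] at this
    simpa only [mul_inv_cancel_right] using this.mul_left c2.inv_left
  refine Nat.div_le_of_le_mul ?_
  rcases isEmpty_or_nonempty (Iv r z) with e | ⟨⟨a, ha⟩⟩
  · simp
  have m : ∀ b : Iv r z, a * b.1 ∈ zpowers r := fun b => by
    obtain ⟨v, hv', e⟩ := h.exists_decomp (mul_mem_Cx ha.2 b.2.2)
    generalize h.kap (a * b.1) = i at e
    have e1 : a * (a * b.1) * a⁻¹ = (a * b.1)⁻¹ := by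
      rw [mul_inv_rev, sq b.2.1]; nth_rw 1 [← sq ha.1]; rw [inv_mul_cancel_left]
    have e2 : a * (xp r i * v) * a⁻¹ = xp r (-i) * v := by
      rw [← inv_xp h ha.2, ← mul_assoc, mul_assoc _ v, ← (cv a ha.2 v hv').inv_left.eq]; group
    rw [e, e2, (h.commute_xp_V i hv').eq, mul_inv_rev, h.xp_neg, mul_right_inj] at e1
    have e3 := (three_cases hv hv' hv').1
    rw [pow_succ, pow_two] at e3
    nth_rw 1 [e1] at e3
    rw [inv_mul_cancel, one_mul] at e3
    rw [e, e3, mul_one]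
    exact h.mem_zpowers_iff.2 ⟨i, rfl⟩
  rw [mul_one, ← h.card_zpowers]
  exact Nat.card_le_card_of_injective (fun b => (⟨_, m b⟩ : zpowers r))
    fun b c e => Subtype.ext (mul_left_cancel (Subtype.mk.inj e))

end JT
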