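import Cfsg.Agent.JT.E4
import Cfsg.Agent.JT.K3

/-! Simple groups of order 50232960: the candidate block 1, 2584, 969, 816, 2736. -/

set_option autoImplicit false
set_option linter.unusedSectionVars false

namespace JT.E5
open Cfsg H8 H2 Subgroup MQ

variable {G : Type*} [Group G] [Fintype G] {r x y : G}

/-- the multiples of `m` whose square is below `c` -/
def rgm (m c : ℕ) : List ℤ :=
  (List.range (2 * (Nat.sqrt c / m) + 1)).map fun i : ℕ => (m : ℤ) * (i - (Nat.sqrt c / m : ℕ))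

theorem mem_rgm {m c : ℕ} {a : ℤ} (hm : 0 < m) (h1 : (m : ℤ) ∣ a) (h2 : a * a ≤ c) :
    a ∈ rgm m c := by
  obtain ⟨b, rfl⟩ := h1
  have h3 : m * b.natAbs ≤ Nat.sqrt c := Nat.le_sqrt.2 (by
    have : ((m * b.natAbs * (m * b.natAbs) : ℕ) : ℤ) = m * b * (m * b) := by
      push_cast; rw [mul_mul_mul_comm, abs_mul_abs_self]; ring
    omega)
  have h4 : b.natAbs ≤ Nat.sqrt c / m := (Nat.le_div_iff_mul_le hm).2 (by rwa [mul_comm])
  simp only [rgm, List.mem_map, List.mem_range]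
  exact ⟨(b + (Nat.sqrt c / m : ℕ)).toNat, by omega, by congr 1; omega⟩

/-- the quadratic form of the block -/
def qB (a e b d a' e' b' d' : ℤ) : ℤ :=
  10046592 - 3888 * a * a' - 10368 * e * e' + 12312 * b * b' + 3672 * d * d'

/-- the three surviving columns -/
def L3 : List (ℤ × ℤ × ℤ) := [(-56, -64, 96), (104, -64, 96), (-296, -144, -144)]

/-- the conclusion of the check -/
def CZ (m : ℕ) (a b d q : ℤ) : Prop :=
    (∀ k ∈ List.range 2, ((k * (128 * m) : ℕ) : ℤ) ^ 2 = 3 * q → m % 5 = 0) ∧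
    ∀ k ∈ List.range 19, ((k * (128 * m) : ℕ) : ℤ) ^ 2 = 18 * q → (k = 0 ∧ m % 5 = 0) ∧
      (a % 5 = 4 ∧ b % 5 = 1 ∧ d % 5 = 1 → (a, b, d) ∈ L3)

instance (m : ℕ) (a b d q : ℤ) : Decidable (CZ m a b d q) := by unfold CZ; infer_instance

theorem chkZ : ∀ m ∈ dvs 1215, ∀ b ∈ rgm 16 (128 * m), ((392445 / m : ℕ) * b) % 816 = 0 →
    ∀ d ∈ rgm 16 (128 * m), ((392445 / m : ℕ) * d) % 2736 = 0 → ∀ a ∈ rgm 8 (128 * m),
    1 + (a * a + (1 - a + b + d) * (1 - a + b + d) + b * b + d * d) ≤ (128 * m : ℕ) →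
    (18 * qB a (1 - a + b + d) b d a (1 - a + b + d) b d) % (128 * m * (128 * m) : ℕ) = 0 →
    ((392445 / m : ℕ) * (1 - a + b + d)) % 969 = 0 →
    CZ m a b d (qB a (1 - a + b + d) b d a (1 - a + b + d) b d) := by
  decide +kernel

theorem chkT : ∀ e ∈ rg4 57 969, ∀ b ∈ rg4 48 816, ∀ a ∈ [e + 2 * b - 17, 187 + 21 * e - 22 * b],
    |a| ≤ 152 → nsq (18 * qB a e b (a + e - b - 1) a e b (a + e - b - 1)) = true := by
  decide +kernel

variable [IsSimpleGroup G]

theorem not_B (L : Loc x y) {h : DefOne 5 r} (he : Nat.card h.H = 4) (F : Full h 4)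
    (hF : ∀ j, F.s j * deg (F.c j) = ![-2584, -969, 816, 2736] j)
    (hv : Nat.card h.V = 3 ∨ Nat.card h.V = 18) : False := by
  have hd : ∀ j, deg (F.c j) = ![2584, 969, 816, 2736] j := fun j => by
    rw [(Loc.sd_of F hF j).2]; revert j; decide
  have hs : ∀ j, F.s j = ![-1, -1, 1, 1] j := fun j => by
    rw [(Loc.sd_of F hF j).1]; revert j; decide
  obtain ⟨z, hz, hi⟩ := exists_central_of_prime (G := G) 2 (by rw [L.hN]; norm_num)
  have z1 : z ≠ 1 := by rintro rfl; simp at hz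
  have z2 : z ^ 2 = 1 := hz ▸ pow_orderOf_eq_one z
  obtain ⟨a, a1, l, e⟩ := L.col F hz hd hs (w := ![3888, 10368, 12312, 3672]) (by decide)
  have c17 := L.hy.not_dvd_card_Cx L.vy z1 (by rw [hz]; decide)
  have c19 := L.hx.not_dvd_card_Cx L.vx z1 (by rw [hz]; decide)
  have c0 := (Cx z).card_mul_index
  rw [L.hN] at c0
  obtain ⟨m, hm⟩ : 128 ∣ Nat.card (Cx z) :=
    (Nat.Coprime.pow_left 7 ((Nat.Prime.coprime_iff_not_dvd Nat.prime_two).2
      hi)).dvd_of_dvd_mul_right (by rw [c0]; norm_num)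
  rw [hm] at c0 c17 c19
  have c1 : m * (Cx z).index = 392445 := by nlinarith
  have m0 : 0 < m := Nat.pos_of_ne_zero (by rintro rfl; simp at c1)
  have ix : (Cx z).index = 392445 / m := by rw [← c1, Nat.mul_div_cancel_left _ m0]
  have m1 : m ∣ 1215 := ((Nat.Prime.coprime_iff_not_dvd (p := 17) (by norm_num)).2
      fun c => c17 (c.mul_left _)).symm.dvd_of_dvd_mul_left
    (((Nat.Prime.coprime_iff_not_dvd (p := 19) (by norm_num)).2
      fun c => c19 (c.mul_left _)).symm.dvd_of_dvd_mul_left ⟨_, c1.symm⟩)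
  have q := full_sq_le F fun j => (a1 j).1
  have dd := fun j => irr_deg_dvd_index_mul _ (a1 j).1
  have od : ∀ {n : ℕ} {u : ℤ}, ((2 ^ n : ℕ) : ℤ) ∣ (Cx z).index * u → ((2 ^ n : ℕ) : ℤ) ∣ u :=
    fun {n u} c => (Nat.isCoprime_iff_coprime.2 (Nat.Coprime.pow_left n
      ((Nat.Prime.coprime_iff_not_dvd Nat.prime_two).2 hi))).dvd_of_dvd_mul_left c
  simp only [hd] at dd
  have d0 := od (n := 3) (Dvd.dvd.trans (by decide) (dd 0))
  have d2 := od (n := 4) (Dvd.dvd.trans (by decide) (dd 2))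
  have d3 := od (n := 4) (Dvd.dvd.trans (by decide) (dd 3))
  simp only [ix] at dd
  simp only [Fin.sum_univ_four, Matrix.cons_val] at l e
  have a3 : a 1 = 1 - a 0 + a 2 + a 3 := by omega
  rw [Fin.sum_univ_four, hm] at q
  have s0 := mul_self_nonneg (a 0)
  have s1 := mul_self_nonneg (a 1)
  have s2 := mul_self_nonneg (a 2)
  have s3 := mul_self_nonneg (a 3)
  have e' : ((kk h z * (128 * m) : ℕ) : ℤ) ^ 2 = Nat.card h.V *
      qB (a 0) (1 - a 0 + a 2 + a 3) (a 2) (a 3) (a 0) (1 - a 0 + a 2 + a 3) (a 2) (a 3) := by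
    rw [← hm, e, ← a3, qB]; ring
  have k := chkZ m (mem_dvs (by norm_num) m1) _ (mem_rgm (by norm_num) d2 (by omega))
    (Int.emod_eq_zero_of_dvd (dd 2)) _ (mem_rgm (by norm_num) d3 (by omega))
    (Int.emod_eq_zero_of_dvd (dd 3)) _ (mem_rgm (by norm_num) d0 (by omega)) (a3 ▸ q)
    (Int.emod_eq_zero_of_dvd (by
      rcases hv with hv | hv <;> rw [hv] at e'
      · exact ⟨6 * kk h z * kk h z, by push_cast at e' ⊢; linear_combination -6 * e'⟩
      · exact ⟨kk h z * kk h z, by push_cast at e' ⊢; linear_combination -e'⟩))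
    (Int.emod_eq_zero_of_dvd (a3 ▸ dd 1))
  have cV : m % 5 = 0 → ∃ g : G, g⁻¹ * z * g ∈ h.V := fun c =>
    exists_conj_V h (by rw [hz]; decide) (by rw [hm]; omega)
  rcases hv with hv | hv
  · obtain ⟨g, hg⟩ := cV (k.1 (kk h z) (List.mem_range.2 (by have := kk_le_one h he hv z2; omega))
      (by rw [e', hv]; rfl))
    have h1 := orderOf_dvd_natCard _ hg
    have := MulEquiv.orderOf_eq (MulAut.conj g⁻¹) z
    rw [MulAut.conj_apply, inv_inv] at this
    rw [this, hz, hv] at h1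
    omega
  obtain ⟨⟨k0, k5⟩, k1⟩ := k.2 (kk h z) (List.mem_range.2 (by have := hv ▸ kk_le h z; omega))
    (by rw [e', hv]; rfl)
  obtain ⟨g, hg⟩ := cV k5
  have md : ∀ j, (5 : ℤ) ∣ F.s j - a j := fun j =>
    dvd_val_sub h (F.c j) hg ((val_conj _ (isConj_iff.2 ⟨g⁻¹, by rw [inv_inv]⟩)).trans (a1 j).1)
      (F.val_mul j hg)
  have m0 := md 0
  have m2 := md 2
  have m3 := md 3
  simp only [hs, Matrix.cons_val] at m0 m2 m3
  replace k1 := k1 ⟨by omega, by omega, by omega⟩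
  obtain ⟨t, ht, hn, hn'⟩ := L.ex_t
  obtain ⟨b, b1, l', f⟩ := L.col F ht hd hs (w := ![3888, 10368, 12312, 3672]) (by decide)
  have p := Full.prs_eq F z t
  rw [prs_kk h (by norm_num) z2 (ht ▸ pow_orderOf_eq_one t), k0, Fin.sum_univ_four] at p
  simp only [(a1 _).1, (b1 _).1, hs, hd, Matrix.cons_val] at p
  have n1 : ((Cx z).index * (Cx t).index * Nat.card h.V / Nat.card G : ℂ) ≠ 0 := by
    have := index_Cx_pos z
    have := index_Cx_pos t
    rw [hv, L.hN]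
    refine div_ne_zero (mul_ne_zero (mul_ne_zero ?_ ?_) ?_) ?_ <;> norm_cast <;> omega
  have p1 := (mul_eq_zero.1 (p.symm.trans (by simp))).resolve_left n1
  have p2 : qB (a 0) (a 1) (a 2) (a 3) (b 0) (b 1) (b 2) (b 3) = 0 := by
    have : ((qB (a 0) (a 1) (a 2) (a 3) (b 0) (b 1) (b 2) (b 3) : ℤ) : ℂ) = 0 := by
      unfold qB; push_cast at p1 ⊢; linear_combination 10046592 * p1
    exact_mod_cast this
  have t0 := L.tb hn hn' _ (b1 0).1
  have t1 := L.tb hn hn' _ (b1 1).1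
  have t2 := L.tb hn hn' _ (b1 2).1
  rw [hd] at t0 t1 t2
  simp only [Fin.sum_univ_four, Matrix.cons_val] at l' f
  have b3 : b 3 = b 0 + b 1 - b 2 - 1 := by omega
  have n := nsq_sq (kk h t * Nat.card (Cx t))
  rw [f, hv, b3, ← Bool.not_eq_true] at n
  refine n (by
    convert chkT (b 1) (mem_rg4 (by simp [sgD] at t1 ⊢; omega) (b1 1).2) (b 2)
      (mem_rg4 (by simp [sgD] at t2 ⊢; omega) (b1 2).2) (b 0) ?_ (by simp [sgD] at t0 ⊢; omega)
      using 2
    · unfold qB; push_cast; ring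
    · simp only [L3, List.mem_cons, Prod.mk.injEq, List.not_mem_nil, or_false] at k1 ⊢
      unfold qB at p2
      rw [a3, b3] at p2
      rcases k1 with ⟨u, v, w⟩ | ⟨u, v, w⟩ | ⟨u, v, w⟩ <;> rw [u, v, w] at p2 <;> omega)

end JT.E5
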