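import Cfsg.Agent.JT.B4
import Cfsg.Agent.JT.BT

/-! Simple groups of order 50232960: cases excluded by the congruence of Brauer-Tuan type. -/

set_option autoImplicit false
set_option linter.unusedSectionVars false

namespace JT
open Cfsg H8 H2 Subgroup MQ

variable {G : Type*} [Group G] [Fintype G] {r x y : G}

namespace Kb
section
variable {p : ℕ} [hp : Fact p.Prime] {n : ℕ}

theorem gen_sg {q m : ℕ} [Fact q.Prime] {k : DefOne q r} (T : Gen k m) (hq : q ≠ p)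
    (h : DefOne p x) {a : IrrCharacter G → ℤ}
    (ha : ∀ χ : IrrCharacter G, ∑ i : {i : ZMod p // i ≠ 0}, χ.1 (xp x i.1) = a χ) :
    (p - 1 : ℤ) + ∑ j, T.s j * a (T.c j) + T.s0 * a T.E = 0 := by
  have : ∑ i : {i : ZMod p // i ≠ 0}, (1 + ∑ j, T.s j * (T.c j).1 (xp x i.1) +
      T.s0 * T.E.1 (xp x i.1)) = 0 :=
    Finset.sum_eq_zero fun i _ => T.lin _ (by
      rw [h.orderOf_xp i.2]; exact mt (Nat.prime_dvd_prime_iff_eq Fact.out hp.out).1 hq)
  rw [Finset.sum_add_distrib, Finset.sum_add_distrib, Finset.sum_comm, Finset.sum_const,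
    Finset.card_univ, card_ne, nsmul_eq_mul, Nat.cast_sub hp.out.one_le] at this
  simp only [← Finset.mul_sum, ha, mul_one] at this
  exact_mod_cast this

theorem mem_c {h : DefOne p x} (T : Gen h n) (hV : h.V = ⊥) {χ : IrrCharacter G}
    (h0 : ¬ p ∣ deg χ) (h1 : deg χ ≠ 1) (h2 : ¬ (p : ℤ) ∣ deg χ + (n + 1))
    (h3 : ¬ (p : ℤ) ∣ -deg χ + (n + 1)) : ∃ j, T.c j = χ := by
  by_contra e
  by_cases hX : χ ∈ T.X
  · have := T.mod0
    rw [← T.deg_X hX] at this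
    rcases T.s0_eq with e | e <;> rw [e] at this
    · exact h2 (by simpa using this)
    · exact h3 (by simpa using this)
  · have := T.other' hV (fun e => h1 (by rw [e, deg_one1])) (not_exists.1 e) hX (i := 1) one_ne_zero
    exact h0 (dvd_deg_of_zero χ h.pow_p (by simpa [xp_one] using this))
end

/-- the divisors of `|G|` -/
def dv5 : List ℕ := dv ++ dv.map (5 * ·)

theorem mem_dv5 {n : ℕ} (h : n ∣ 50232960) : n ∈ dv5 := by
  rw [show 50232960 = 5 * 10046592 from rfl] at h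
  obtain ⟨a, b, ha, hb, rfl⟩ := exists_dvd_and_dvd_of_dvd_mul h
  rcases (Nat.dvd_prime Nat.prime_five).1 ha with rfl | rfl
  · exact List.mem_append_left _ (by simpa using mem_dv hb)
  · exact List.mem_append_right _ (List.mem_map.2 ⟨b, mem_dv hb, rfl⟩)

/-- signed degrees and sums over the elements of order 19 in the principal 17-block -/
def NE17 : List (ℤ × ℤ) := [(18, -18), (-152, 0), (171, 0), (324, 18), (1140, 0), (-1920, -18),
  (2432, 0), (-2736, 0), (3078, 0)]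
/-- the same for the exceptional characters -/
def EX17 : List (ℤ × ℤ) := [(9, -9), (-76, 0), (162, 9), (570, 0), (-960, -9), (-1215, 18),
  (1216, 0), (-1368, 0), (1539, 0)]

set_option synthInstance.maxSize 1024 in
theorem chk17 : ∀ d ∈ dv5, d ≠ 1 → d * d ≤ 50232960 →
    (d % 19 = 0 ∨ d % 19 = 1 ∨ d % 19 = 18 ∨ d % 19 = 9 ∨ d % 19 = 10) → ∀ s ∈ [(1 : ℤ), -1],
    ((s * d - 1) % 17 = 0 → (s * d, s * sgD 19 9 d) ∈ NE17) ∧
    ((s * d + 8) % 17 = 0 → (s * d, s * sgD 19 9 d) ∈ EX17) := by decide +kernel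

theorem chk19 : ∀ d ∈ dv5, d ≠ 1 → d * d ≤ 50232960 →
    (d % 17 = 0 ∨ d % 17 = 1 ∨ d % 17 = 16 ∨ d % 17 = 8 ∨ d % 17 = 9) → ∀ s ∈ [(1 : ℤ), -1],
    ((s * d - 1) % 19 = 0 → d % 16 = 0 → d % 5 ≠ 0 → s * d = -816) ∧
    ((s * d + 9) % 19 = 0 → -1377 ≤ s * d ∧ s * d ≤ 2176 ∧
      (d % 16 = 0 → d % 5 ≠ 0 → s * d = 2176)) := by
  decide +kernel

theorem sgn_cases {s f c : ℤ} {d a : ℕ} (hs : s = 1 ∨ s = -1)
    (h : f = 0 ∨ f = 1 ∧ a ∣ d ∧ ¬ 5 ∣ d) (hc : c = a) :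
    f * (s * d) = 0 ∨ f * (s * d) = s * d ∧ (s * d) % c = 0 ∧ (s * d) % 5 ≠ 0 := by
  rcases h with rfl | ⟨rfl, ⟨k, rfl⟩, h⟩
  · simp
  · refine .inr ⟨one_mul _, ?_, by rcases hs with rfl | rfl <;> omega⟩
    rw [hc]
    exact Int.emod_eq_zero_of_dvd ⟨s * k, by push_cast; ring⟩

/-- enumeration of the multiplicities -/
def go (fin : ℕ → ℤ → ℤ → ℤ → Bool) : List (ℤ × ℤ × ℤ) → ℕ → ℤ → ℤ → ℤ → Bool
  | [], k, s, t, u => fin k s t u
  | a :: l, k, s, t, u => (List.range (k + 1)).all fun n =>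
      go fin l (k - n) (s + n * a.1) (t + n * a.2.1) (u + n * a.2.2)

theorem go_ok (fin : ℕ → ℤ → ℤ → ℤ → Bool) (N : ℤ × ℤ × ℤ → ℕ) : ∀ (A : List (ℤ × ℤ × ℤ))
    (k k' : ℕ) (s t u : ℤ), go fin A k s t u = true → (A.map fun a => (N a : ℤ) * 1).sum + k' = k →
    fin k' (s + (A.map fun a => (N a : ℤ) * a.1).sum) (t + (A.map fun a => (N a : ℤ) * a.2.1).sum)
      (u + (A.map fun a => (N a : ℤ) * a.2.2).sum) = true
  | [], k, k', s, t, u, h, e => by
    obtain rfl : k' = k := by simpa using e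
    simpa [go] using h
  | a :: l, k, k', s, t, u, h, e => by
    simp only [List.map_cons, List.sum_cons] at e ⊢
    have p : 0 ≤ (l.map fun a => (N a : ℤ) * 1).sum :=
      List.sum_nonneg (by simp only [List.mem_map]; rintro _ ⟨b, -, rfl⟩; positivity)
    have := go_ok fin N l (k - N a) k' _ _ _ (List.all_eq_true.1 h (N a)
      (List.mem_range.2 (by omega))) (by omega)
    simpa only [add_assoc] using this

/-- the final test -/
def fin2 (c M : ℤ) (k : ℕ) (s t u : ℤ) : Bool := k != 0 || EX17.all fun e =>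
  1 + s + e.1 != 0 || 18 + t + e.2 != 0 ||
    (u % M != 0 && (e.1 % c != 0 || e.1 % 5 == 0 || (u + e.1) % M != 0))

/-- the whole test -/
def chk (c M : ℤ) (a : ℤ × ℤ × ℤ) (A B : List (ℤ × ℤ × ℤ)) : Bool :=
  (List.range 8).all fun n => n == 0 || go (fun k s t u => decide (-9 < t) || decide (t < -36) ||
    go (fin2 c M) B k s t u) A (7 - n) (n * a.1) (n * a.2.1) (n * a.2.2)

theorem chk_ok {c M : ℤ} {a : ℤ × ℤ × ℤ} {A B : List (ℤ × ℤ × ℤ)} (h : chk c M a A B = true)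
    (hB : ∀ b ∈ B, b.2.1 = 0) {N : ℤ × ℤ × ℤ → ℕ} {e : ℤ × ℤ} {f : ℤ} (h1 : 1 ≤ N a)
    (he : e ∈ EX17) (hf : f = 0 ∨ f = e.1 ∧ e.1 % c = 0 ∧ e.1 % 5 ≠ 0)
    (a1 : ((a :: (A ++ B)).map fun t => (N t : ℤ) * 1).sum = 7)
    (a2 : 1 + ((a :: (A ++ B)).map fun t => (N t : ℤ) * t.1).sum + e.1 = 0)
    (a3 : 18 + ((a :: (A ++ B)).map fun t => (N t : ℤ) * t.2.1).sum + e.2 = 0)
    (a4 : M ∣ ((a :: (A ++ B)).map fun t => (N t : ℤ) * t.2.2).sum + f) : False := by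
  simp only [List.map_cons, List.sum_cons, List.map_append, List.sum_append, ← add_assoc]
    at a1 a2 a3 a4
  have p : ∀ l : List (ℤ × ℤ × ℤ), 0 ≤ (l.map fun a => (N a : ℤ) * 1).sum := fun l =>
    List.sum_nonneg (by simp only [List.mem_map]; rintro _ ⟨b, -, rfl⟩; positivity)
  have pA := p A
  have pB := p B
  have z : (B.map fun t => (N t : ℤ) * t.2.1).sum = 0 :=
    List.sum_eq_zero (by simp only [List.mem_map]; rintro _ ⟨b, hb, rfl⟩; simp [hB b hb])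
  have k1 := List.all_eq_true.1 h (N a) (List.mem_range.2 (by omega))
  rw [show (N a == 0) = false by simp; omega, Bool.false_or] at k1
  have k2 := go_ok _ N A _ (B.map fun a => (N a : ℤ) * 1).sum.toNat _ _ _ k1 (by omega)
  have e2 : -9 ≤ e.2 ∧ e.2 ≤ 18 := (by decide : ∀ e ∈ EX17, -9 ≤ e.2 ∧ e.2 ≤ 18) e he
  rw [decide_eq_false (by omega), decide_eq_false (by omega), Bool.false_or, Bool.false_or] at k2
  have k3 := go_ok _ N B _ 0 _ _ _ k2 (by omega)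
  rw [fin2, show ((0 : ℕ) != 0) = false from rfl, Bool.false_or] at k3
  have k4 := List.all_eq_true.1 k3 e he
  simp only [Bool.or_eq_true, Bool.and_eq_true, bne_iff_ne, beq_iff_eq, ← add_assoc] at k4
  have a5 := Int.emod_eq_zero_of_dvd a4
  rcases hf with rfl | ⟨rfl, f1, f2⟩
  · rw [add_zero] at a5
    tauto
  · tauto

theorem chk96 : chk 4 128 (324, 18, 324) [(18, -18, 0), (324, 18, 0), (-1920, -18, 0)]
    [(-152, 0, 0), (-152, 0, -152), (171, 0, 0), (1140, 0, 0), (2432, 0, 0), (2432, 0, 2432),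
      (-2736, 0, 0), (-2736, 0, -2736), (3078, 0, 0)] = true := by decide +kernel

theorem chk108 : chk 9 243 (-2736, 0, -2736) [(18, -18, 0), (18, -18, 18), (324, 18, 0),
    (324, 18, 324), (-1920, -18, 0)] [(-152, 0, 0), (171, 0, 0), (171, 0, 171), (1140, 0, 0),
      (2432, 0, 0), (-2736, 0, 0), (3078, 0, 0), (3078, 0, 3078)] = true := by decide +kernel

end Kb
open Kb

namespace Loc
variable [IsSimpleGroup G] (L : Loc x y)
include L

theorem kb_idx5 (h : DefOne 5 r) : (Cx r).index * Nat.card h.V = 10046592 := by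
  rw [h.index_Cx, (loc_num L.nc h (m := 10046592) L.hN).1]

/-- the counting form of the congruence in the principal 17-block -/
theorem kb_b17 {q a b m : ℕ} [Fact q.Prime] (hG : 50232960 = q ^ b * m) (h : DefOne 5 r)
    (hi : q ^ a ∣ (Cx r).index) (hq : q ∣ (Cx r).index) {χ : IrrCharacter G} (hf : fl q r χ = 1)
    (h0 : deg χ % 17 = 1 ∨ deg χ % 17 = 16) (h1 : deg χ ≠ 1) {c : ℤ} (hc : c = (q ^ a : ℕ))
    (A : List (ℤ × ℤ × ℤ)) (hA : A.Nodup) (hA' : ∀ t ∈ NE17, (t.1, t.2, 0) ∈ A ∧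
      (t.1 % c = 0 → t.1 % 5 ≠ 0 → (t.1, t.2, t.1) ∈ A)) :
    ∃ (N : ℤ × ℤ × ℤ → ℕ) (e : ℤ × ℤ) (f : ℤ), (∃ t ∈ NE17, t.1.natAbs = deg χ ∧
      1 ≤ N (t.1, t.2, t.1)) ∧ e ∈ EX17 ∧ (f = 0 ∨ f = e.1 ∧ e.1 % c = 0 ∧ e.1 % 5 ≠ 0) ∧
      (A.map fun t => (N t : ℤ) * 1).sum = 7 ∧
      1 + (A.map fun t => (N t : ℤ) * t.1).sum + e.1 = 0 ∧
      18 + (A.map fun t => (N t : ℤ) * t.2.1).sum + e.2 = 0 ∧
      (q : ℤ) ^ b ∣ (A.map fun t => (N t : ℤ) * t.2.2).sum + f := by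
  obtain ⟨T⟩ := exists_gen L.hy (n := 7) L.ey
  have key := fun (ψ : IrrCharacter G) (b1 : ψ ≠ one1 G) (s : ℤ) (hs : s = 1 ∨ s = -1) =>
    chk17 _ (mem_dv5 (L.hN ▸ deg_dvd_card ψ)) (by have := two_le_deg L.perf b1; omega)
      (L.hN ▸ deg_sq_le ψ) (L.ty ψ).1 s (by simpa using hs)
  have kc := fun j => (key _ (T.ne_one j) _ (T.s_eq j)).1 (Int.emod_eq_zero_of_dvd (T.mod j))
  have kE := (key _ (T.X1 _ T.E_mem) _ T.s0_eq).2 (Int.emod_eq_zero_of_dvd T.mod0)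
  obtain ⟨N, n1, n2⟩ := exists_cnt (fun j => (T.q j, T.s j * sgD 19 9 (deg (T.c j)),
    fl q r (T.c j) * T.q j)) A hA fun j => by
      rcases sgn_cases (T.s_eq j) (fl_cases h hi (T.c j)) hc with e | ⟨e, e1, e2⟩ <;> rw [e]
      · exact (hA' _ (kc j)).1
      · exact (hA' _ (kc j)).2 e1 e2
  obtain ⟨j, rfl⟩ := mem_c T L.vy (χ := χ) (by omega) h1 (by omega) (by omega)
  have s3 := bt (q := q) (r := r) T L.vy (by rw [h.ord]; decide) (L.hN.trans hG)
  rw [fl_one hq, zero_add] at s3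
  refine ⟨N, (T.q0, T.s0 * sgD 19 9 (deg T.E)), fl q r T.E * T.q0, ⟨_, kc j, ?_, ?_⟩, kE,
    sgn_cases T.s0_eq (fl_cases h hi T.E) hc, ?_, ?_, ?_, ?_⟩
  · rcases T.s_eq j with e | e <;> simp [e]
  · simpa [hf] using n1 j
  · rw [← n2 fun _ => 1]; simp
  · rw [← n2 fun t => t.1]; exact T.sum_deg
  · rw [← n2 fun t => t.2.1]; exact gen_sg T (by decide) L.hx L.sx
  · rw [← n2 fun t => t.2.2]; exact s3

theorem not_v96 {h : DefOne 5 r} (T : Gen h 1) (hd : deg (T.c 0) = 324) :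
    Nat.card h.V ≠ 96 := fun hv => by
  have i := L.kb_idx5 h
  have i' : (Cx r).index = 104652 := by rw [hv] at i; omega
  obtain ⟨N, e, f, ⟨t, t1, t2, t3⟩, he, hf, a1, a2, a3, a4⟩ := L.kb_b17 (q := 2) (a := 2) (b := 7)
    (m := 392445) (by norm_num) h (by rw [i']; norm_num) (by rw [i']; norm_num)
    (fl_eq_one (T.s_eq 0) (T.val_x 0) (k := 323) (by rw [i', hd]) (by norm_num)) (by omega)
    (by omega) (c := 4) (by norm_num) ((324, 18, 324) :: ([(18, -18, 0), (324, 18, 0),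
      (-1920, -18, 0)] ++ [(-152, 0, 0), (-152, 0, -152), (171, 0, 0), (1140, 0, 0), (2432, 0, 0),
      (2432, 0, 2432), (-2736, 0, 0), (-2736, 0, -2736), (3078, 0, 0)])) (by decide) (by decide)
  obtain rfl : t = (324, 18) := (by decide : ∀ t ∈ NE17, t.1.natAbs = 324 → t = (324, 18)) t t1
    (t2.trans hd)
  exact chk_ok chk96 (by decide) t3 he hf a1 a2 a3 a4

theorem not_B108 (h : DefOne 5 r) {χ : IrrCharacter G} {s : ℤ} (hs : s = 1 ∨ s = -1)
    (hχ : χ.1 r = s) (hd : deg χ = 2736) : Nat.card h.V ≠ 108 := fun hv => by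
  have i := L.kb_idx5 h
  have i' : (Cx r).index = 93024 := by rw [hv] at i; omega
  obtain ⟨N, e, f, ⟨t, t1, t2, t3⟩, he, hf, a1, a2, a3, a4⟩ := L.kb_b17 (q := 3) (a := 2) (b := 5)
    (m := 206720) (by norm_num) h (by rw [i']; norm_num) (by rw [i']; norm_num)
    (fl_eq_one hs hχ (k := 34) (by rw [i', hd]) (by norm_num)) (by omega)
    (by omega) (c := 9) (by norm_num) ((-2736, 0, -2736) :: ([(18, -18, 0), (18, -18, 18),
      (324, 18, 0), (324, 18, 324), (-1920, -18, 0)] ++ [(-152, 0, 0), (171, 0, 0), (171, 0, 171),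
      (1140, 0, 0), (2432, 0, 0), (-2736, 0, 0), (3078, 0, 0), (3078, 0, 3078)])) (by decide)
      (by decide)
  obtain rfl : t = (-2736, 0) := (by decide : ∀ t ∈ NE17, t.1.natAbs = 2736 → t = (-2736, 0)) t t1
    (t2.trans hd)
  exact chk_ok chk108 (by decide) t3 he hf a1 a2 a3 a4

theorem not_816 (h : DefOne 5 r) {χ : IrrCharacter G} {s : ℤ} (hs : s = 1 ∨ s = -1)
    (hχ : χ.1 r = s) (hd : deg χ = 816) : Nat.card h.V ≠ 8 ∧ Nat.card h.V ≠ 648 := by
  have i := L.kb_idx5 h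
  suffices H : ∀ k, (Cx r).index = 816 * k → ¬ 2 ∣ k → False from
    ⟨fun hv => H 1539 (by rw [hv] at i; omega) (by norm_num),
      fun hv => H 19 (by rw [hv] at i; omega) (by norm_num)⟩
  intro k hk h2
  have hi : 2 ^ 4 ∣ (Cx r).index := ⟨51 * k, by omega⟩
  obtain ⟨T⟩ := exists_gen L.hx (n := 8) L.ex
  have key := fun (ψ : IrrCharacter G) (b1 : ψ ≠ one1 G) (s : ℤ) (hs : s = 1 ∨ s = -1) =>
    chk19 _ (mem_dv5 (L.hN ▸ deg_dvd_card ψ)) (by have := two_le_deg L.perf b1; omega)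
      (L.hN ▸ deg_sq_le ψ) (L.ty ψ).2 s (by simpa using hs)
  have kc := fun j => (key _ (T.ne_one j) _ (T.s_eq j)).1 (Int.emod_eq_zero_of_dvd (T.mod j))
  have kE := (key _ (T.X1 _ T.E_mem) _ T.s0_eq).2 (Int.emod_eq_zero_of_dvd T.mod0)
  obtain ⟨j, rfl⟩ := mem_c T L.vx (χ := χ) (by omega) (by omega) (by omega) (by omega)
  have f1 := fl_eq_one (q := 2) hs hχ (hd ▸ hk) h2
  have s3 := bt (q := 2) (r := r) (a := 7) (m := 392445) T L.vx (by rw [h.ord]; decide) L.hN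
  rw [fl_one (dvd_trans (by norm_num) hi), zero_add] at s3
  have c : ∀ j, fl 2 r (T.c j) = 0 ∨ fl 2 r (T.c j) = 1 ∧ T.q j = -816 := fun j =>
    (fl_cases h hi (T.c j)).imp_right fun e => ⟨e.1, kc j (by omega) (by omega)⟩
  have c1 : ∑ j, fl 2 r (T.c j) * T.q j = -816 * ∑ j, fl 2 r (T.c j) := by
    rw [Finset.mul_sum]
    exact Finset.sum_congr rfl fun j _ => by rcases c j with e | ⟨e, e'⟩ <;> simp [*]
  have c2 : (128 : ℤ) ∣ fl 2 r T.E * T.q0 := by
    rcases fl_cases h hi T.E with e | ⟨e, e1, e2⟩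
    · simp [e]
    · rw [e, one_mul, Gen.q0, kE.2.2 (by omega) (by omega)]; norm_num
  have c3 : ∀ j, 0 ≤ fl 2 r (T.c j) ∧ fl 2 r (T.c j) ≤ 1 := fun j => by have := c j; omega
  have c4 := Finset.single_le_sum (f := fun j => fl 2 r (T.c j)) (fun j _ => (c3 j).1)
    (Finset.mem_univ j)
  have c5 : ∑ j, fl 2 r (T.c j) = 8 := by
    have := Finset.sum_le_card_nsmul Finset.univ (fun j => fl 2 r (T.c j)) 1 fun j _ => (c3 j).2
    simp only [Finset.card_univ, Fintype.card_fin, nsmul_eq_mul] at this c4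
    rw [c1] at s3
    omega
  have c6 : ∀ j, T.q j = -816 := fun j => by
    have := c j
    have e := fun j => c3 j
    rw [Fin.sum_univ_eight] at c5
    have := e 0; have := e 1; have := e 2; have := e 3; have := e 4; have := e 5; have := e 6
    have := e 7
    fin_cases j <;> simp only [Fin.reduceFinMk, Fin.zero_eta, Fin.mk_one, Fin.isValue] at * <;> omega
  have s1 := T.sum_deg
  simp only [c6, Finset.sum_const, Finset.card_univ, Fintype.card_fin, Gen.q0] at s1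
  simp only [nsmul_eq_mul] at s1
  omega

theorem not_B8_108 {h : DefOne 5 r} (F : Full h 4)
    (hF : ∀ j, F.s j * deg (F.c j) = ![-2584, -969, 816, 2736] j) :
    Nat.card h.V ≠ 8 ∧ Nat.card h.V ≠ 108 := by
  have v : ∀ j, (F.c j).1 r = F.s j := fun j => by
    simpa [xp_one] using F.val' j (one_ne_zero (α := ZMod 5))
  have a : F.s 2 * deg (F.c 2) = 816 := hF 2
  have b : F.s 3 * deg (F.c 3) = 2736 := hF 3
  refine ⟨(L.not_816 h (F.s_eq 2) (v 2) ?_).1, L.not_B108 h (F.s_eq 3) (v 3) ?_⟩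
  · rcases F.s_eq 2 with e | e <;> rw [e] at a <;> omega
  · rcases F.s_eq 3 with e | e <;> rw [e] at b <;> omega

end Loc
end JT
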