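import Cfsg.Agent.JT.L19

/-! The case `e = 16`, `|V| = 9` at the prime 17. -/

set_option autoImplicit false
set_option linter.unusedSectionVars false

namespace JT
open Cfsg H8 H2 MQ Subgroup
open scoped ComplexConjugate

theorem chk169a : ∀ d ∈ dvG, 328320 % d = 0 → 34 < d → d * d ≤ 50232960 →
    (d % 17 = 1 ∨ d % 17 = 16) → d = 1920 ∨ d % 19 = 0 ∨ d % 19 ∈ [2, 3, 6, 13] := by
  decide +kernel

theorem chk169b : ∀ c ∈ dvG, c % 19 ≠ 0 → ∀ m ∈ [306, 612, 1224, 2448], c % m = 0 →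
    c / m % 17 = 1 → ∀ i ∈ List.range 64, ((51 * i - 1599 : ℤ) * (51 * i - 1599) < c) →
    ((50232960 / c : ℕ) * (51 * i - 1599 : ℤ)) % 1920 ≠ 0 := by
  decide +kernel

theorem chk169c : ∀ m ∈ List.range 2449, 2448 % m = 0 → 306 ≤ m → m % 9 = 0 →
    m ∈ [306, 612, 1224, 2448] := by
  decide +kernel

variable {G : Type*} [Group G] [Fintype G] {p : ℕ} [hp : Fact p.Prime] {x y u : G}

/-- the stabilizer in `N(y)` of a non-trivial element of `V` -/
theorem card_Nx_le (h : DefOne p y) (hu : u ∈ h.V) (h1 : u ≠ 1) :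
    Nat.card (Nx y) ≤ (Nat.card h.V - 1) * Nat.card ↥(Nx y ⊓ Cx u) := by
  let := MulAction.compHom G ((MulAut.conj (G := G)).comp (Nx y).subtype)
  have sm : ∀ (n : Nx y) (g : G), n • g = n * g * (n : G)⁻¹ := fun _ _ => rfl
  have e : MulAction.stabilizer (Nx y) u = (Cx u).subgroupOf (Nx y) := by
    ext n
    rw [MulAction.mem_stabilizer_iff, sm, mem_subgroupOf, mem_Cx, mul_inv_eq_iff_eq_mul]
  have e2 : Nat.card ((Cx u).subgroupOf (Nx y)) = Nat.card ↥(Nx y ⊓ Cx u) := by
    rw [← inf_subgroupOf_left]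
    exact Nat.card_congr (subgroupOfEquivOfLe inf_le_left).toEquiv
  have e3 : (MulAction.orbit (Nx y) u).ncard ≤ Nat.card h.V - 1 := by
    rw [show Nat.card h.V = (h.V : Set G).ncard from rfl,
      ← Set.ncard_sdiff_singleton_of_mem (show (1 : G) ∈ (h.V : Set G) from h.V.one_mem)]
    refine Set.ncard_le_ncard ?_
    rintro _ ⟨n, rfl⟩
    refine ⟨h.conj_mem_V n.2 hu, fun c => h1 ?_⟩
    have c : (n : G) * u * (n : G)⁻¹ = 1 := c
    simpa using c
  rw [← ((Cx u).subgroupOf (Nx y)).index_mul_card, e2, ← e, MulAction.index_stabilizer]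
  exact Nat.mul_le_mul_right _ e3

variable [IsSimpleGroup G] (hN : Nat.card G = 50232960)
include hN

/-- the character of degree 1920 -/
theorem ex1920 {h : DefOne 17 y} (F : Full h 16) (hv : Nat.card h.V = 9) :
    ∃ j, deg (F.c j) = 1920 ∧ F.s j = -1 ∧ cc (F.c j) = F.c j := by
  classical
  obtain ⟨x, hx⟩ := exD19 hN
  obtain ⟨vx, ex⟩ := loc19 hN hx
  obtain ⟨T⟩ := exists_gen hx (n := 8) ex
  have hV : h.V ≠ ⊥ := fun e => by rw [e, card_bot] at hv; omega
  have ix := (idx hN h (m := 2954880) rfl).2.2.2.1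
  rw [hv] at ix
  have sg : ∀ j, deg (F.c j) = 1920 → F.s j = -1 := fun j d => by
    have := F.mod j
    rcases F.s_eq j with e | e <;> rw [e, d] at this <;> first | exact e | omega
  have mx : ∀ χ : IrrCharacter G, mu hx χ = χ.1 x := fun χ => mu_const hx fun v hv => by
    rw [vx, mem_bot] at hv; rw [hv, mul_one]
  have val : ∀ j, (F.s j : ℂ) * (F.c j).1 x = if deg (F.c j) = 1920 then -1 else 0 := fun j => by
    have d1 := F.dvd j
    rw [ix] at d1
    have d2 := deg_sq_le (F.c j)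
    have d3 := F.mod j
    have c := chk169a _ (mem_dvG (d1.trans (by norm_num))) (Nat.mod_eq_zero_of_dvd d1)
      (F.large (perf hN) hV j) (by rw [← hN]; exact d2)
      (by rcases F.s_eq j with e | e <;> rw [e] at d3 <;> omega)
    by_cases z : 19 ∣ deg (F.c j)
    · rw [irr_eq_zero_of_dvd_deg hx.not_sq _ z (by rw [hx.ord]), if_neg (by omega), mul_zero]
    simp only [List.mem_cons, List.not_mem_nil, or_false] at c
    rcases mu_cases T (F.ne_one j) with e | ⟨s, hs, e, k⟩ | ⟨-, k, -⟩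
    · exact absurd (dvd_deg_of_zero _ hx.pow_p (mx _ ▸ e)) z
    · have d : deg (F.c j) = 1920 := by rcases hs with rfl | rfl <;> omega
      have : s = 1 := by rcases hs with rfl | rfl <;> omega
      rw [← mx, e, this, sg j d, if_pos d]; simp
    · rcases T.s0_eq with e | e <;> rw [e] at k <;> omega
  have lin := F.lin x (by rw [hx.ord]; decide)
  simp only [val, Finset.sum_ite, Finset.sum_const, smul_zero, add_zero, nsmul_eq_mul] at lin
  have one : (Finset.univ.filter fun j => deg (F.c j) = 1920).card = 1 := by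
    have : ((Finset.univ.filter fun j => deg (F.c j) = 1920).card : ℂ) = 1 := by
      linear_combination -lin
    exact_mod_cast this
  obtain ⟨j, hj⟩ := Finset.card_eq_one.1 one
  have mem : ∀ i, deg (F.c i) = 1920 ↔ i = j := fun i => by
    rw [← Finset.mem_singleton (a := j), ← hj]; simp
  have d := (mem j).2 rfl
  obtain ⟨k, hk⟩ := F.mem_of_const (χ := cc (F.c j)) (ne_of_deg (by rw [deg_cc, d, deg_one1]; decide))
    (a := -1) (by norm_num) fun v hv => by
      change conj ((F.c j).1 (y * v)) = -1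
      rw [F.val_mul j hv, sg j d]; simp
  refine ⟨j, d, sg j d, ?_⟩
  rw [← hk, (mem k).1 (by rw [hk, deg_cc, d])]

/-- the case `e = 16`, `|V| = 9` does not occur -/
theorem not_169 (h : DefOne 17 y) (he : Nat.card h.H = 16) : Nat.card h.V ≠ 9 := fun hv => by
  obtain ⟨F⟩ := exists_full h (n := 16) rfl he
  obtain ⟨j, d, sg, re⟩ := ex1920 hN F hv
  obtain ⟨u, hu, ou⟩ := exists_mem_V h 3 (by rw [hv]; decide)
  have u3 : u ^ 3 = 1 := ou ▸ pow_orderOf_eq_one u
  have u1 : u ≠ 1 := fun e => by rw [e, orderOf_one] at ou; omega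
  obtain ⟨a, ha⟩ := exists_int_three u3 (irr_isCharacter (F.c j).2) (real_of_cc re u)
  have cm : Commute y u := (mem_Cx.1 (h.V_le hu)).symm
  have a17 := dvd_char_sub 17 (irr_isCharacter (F.c j).2) (k := 1) (by simpa using h.pow_p) cm
    (a := -1) (by rw [F.val_mul j hu, sg]) ha
  have a3 := dvd_val_sub_deg 3 (F.c j) (k := 1) (by simpa using u3) ha
  have ad := irr_deg_dvd_index_mul (F.c j) ha
  have sq := sq_list_le (l := [one1 G, F.c j]) (by simp [(F.ne_one j).symm]) u
  simp only [List.map_cons, List.map_nil, List.sum_cons, List.sum_nil, ha, Pi.one_apply, map_one,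
    Complex.normSq_intCast, add_zero] at sq
  have sq : 1 + a * a ≤ (Nat.card (Cx u) : ℤ) := by exact_mod_cast sq
  obtain ⟨x, hx⟩ := exD19 hN
  have c19 := hx.not_dvd_card_Cx (loc19 hN hx).1 u1 (by rw [ou]; decide)
  have cd : Nat.card (Cx u) ∣ 50232960 := hN ▸ card_subgroup_dvd_card _
  have ci : (Cx u).index = 50232960 / Nat.card (Cx u) := by
    rw [← hN, ← (Cx u).index_mul_card, Nat.mul_div_cancel _ Nat.card_pos]
  obtain ⟨n, n1, n2⟩ := card_eq_mul_Nx h (K := Cx u) (mem_Cx.2 cm.eq)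
  have nx : Nat.card (Nx y) = 2448 := by rw [h.card_Nx, h.card_Cx, hv, he]
  have m1 := card_Nx_le h hu u1
  have m2 : Nat.card ↥(Nx y ⊓ Cx u) ∣ 2448 := nx ▸ card_dvd_of_le inf_le_left
  have m3 : 9 ∣ Nat.card ↥(Nx y ⊓ Cx u) := by
    have := IsPGroup.isMulCommutative_of_card_eq_prime_sq (p := 3) (G := h.V) hv
    refine hv ▸ card_dvd_of_le (le_inf (h.V_le.trans Cx_le_Nx) fun v hv => mem_Cx.2 ?_)
    exact congrArg Subtype.val (mul_comm' (⟨v, hv⟩ : h.V) ⟨u, hu⟩)
  rw [nx, hv] at m1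
  have mp : 0 < Nat.card ↥(Nx y ⊓ Cx u) := Nat.card_pos
  have cl : Nat.card (Cx u) ≤ 2643840 := Nat.le_of_dvd (by norm_num)
    (((Nat.Prime.coprime_iff_not_dvd (by norm_num)).2 c19).symm.dvd_of_dvd_mul_left cd)
  have ab : -1626 < a ∧ a < 1626 := by constructor <;> nlinarith
  obtain ⟨i, hi⟩ : ∃ i : ℕ, a = 51 * i - 1599 := ⟨((a + 1599) / 51).toNat, by omega⟩
  rw [ci, d] at ad
  refine chk169b _ (mem_dvG cd) (by omega) _ (chk169c _ (List.mem_range.2 (Nat.lt_succ_of_le
    (Nat.le_of_dvd (by norm_num) m2))) (Nat.mod_eq_zero_of_dvd m2) (by omega) (by omega))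
    (by rw [n2]; simp) (by rw [n2, Nat.mul_div_cancel _ mp, n1]) i (List.mem_range.2 (by omega))
    (by rw [← hi]; omega) (by rw [← hi]; exact Int.emod_eq_zero_of_dvd ad)

end JT
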