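import Cfsg.Agent.JT.L16
import Cfsg.Agent.JT.B4

/-! Simple groups of order 50232960: the Sylow 17-normalizer. -/

set_option autoImplicit false
set_option linter.unusedSectionVars false

namespace JT
open Cfsg H8 H2 Subgroup MQ

/-- the signed trace at an element of order 19 -/
def tf19 (q : ℤ) : ℤ := (2 * q + 9) % 19 - 9

/-- signed degrees with their traces -/
def SP (L b : ℕ) (p r : ℤ) : List (ℤ × ℤ) :=
  ((SD L b p r).filter fun q => decide (-2 ≤ tf19 q) && decide (tf19 q ≤ 2)).map fun q => (q, tf19 q)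

theorem chk17 : ∀ v ∈ dvG, v ≠ 1 → v % 19 ≠ 0 → ∀ n ∈ [1, 3, 7, 15], 2954880 % ((n + 1) * v) = 0 →
    2954880 / ((n + 1) * v) % 17 = 1 → (n, v) = (15, 9) ∨
    ((∀ q ∈ SP (2954880 / v) 34 17 1, 0 ≤ q.2) ∧
      ∀ q ∈ SP (2954880 / v) 34 17 (-(n + 1)), -1 ≤ q.2) := by
  decide +kernel

theorem chk169 : ∀ q ∈ SP 328320 34 17 1, q ∈ [((-152 : ℤ), (0 : ℤ)), (171, 0), (1140, 0),
    (-1920, -2), (2432, 0), (-2736, 0)] := by
  decide +kernel

variable {G : Type*} [Group G] [Fintype G] [IsSimpleGroup G] {x y w : G}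
  (hN : Nat.card G = 50232960)
include hN

/-- values at an element of order 19 are read off from the degree -/
theorem xt19 (hx : DefOne 19 x) {χ : IrrCharacter G} (h1 : χ ≠ one1 G) :
    χ.1 x + χ.1 x⁻¹ = tr x χ ∧ tr x χ ∈ [(-2 : ℤ), -1, 0, 1, 2] ∧
    ((deg χ : ℤ) + 9 * tr x χ) % 19 = 0 ∧
    ∀ a : ℤ, tr x χ = 2 * a → ∀ i : ZMod 19, i ≠ 0 → χ.1 (xp x i) = a := by
  obtain ⟨vx, ex⟩ := loc19 hN hx
  obtain ⟨T⟩ := exists_gen hx (n := 8) ex
  have t : T.Two := T.two ex rfl (by decide)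
  by_cases h2 : ∃ j, T.c j = χ
  · obtain ⟨j, rfl⟩ := h2
    have a := T.mod j
    have e : tr x (T.c j) = 2 * T.s j := tr_eq' (T.val_x j)
    refine ⟨by rw [e, T.val_x j, val_inv (T.val_x j)]; push_cast; ring, ?_, ?_, fun b hb i hi => ?_⟩
    · rcases T.s_eq j with e' | e' <;> simp [e, e']
    · rcases T.s_eq j with e' | e' <;> rw [e'] at a <;> omega
    · rw [T.val' j hi, show b = T.s j by omega]
  by_cases h3 : χ ∈ T.X
  · have a := T.mod0
    have e : tr x χ = T.s0 := tr_eq (t.tr h3)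
    refine ⟨by rw [e, t.tr h3], ?_, ?_, fun b hb i hi => ?_⟩
    · rcases T.s0_eq with e' | e' <;> simp [e, e']
    · rw [T.deg_X h3]
      rcases T.s0_eq with e' | e' <;> rw [e'] at a <;> omega
    · rcases T.s0_eq with e' | e' <;> omega
  · have o := fun i hi => T.other' vx h1 (fun j e => h2 ⟨j, e⟩) h3 (i := i) hi
    have z : χ.1 x = (0 : ℤ) := by simpa [xp_one] using o 1 one_ne_zero
    have e : tr x χ = 2 * 0 := tr_eq' z
    have a := dvd_deg_of_zero χ hx.pow_p (by simpa using z)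
    refine ⟨by rw [e, z, val_inv z]; simp, by simp [e], by omega, fun b hb i hi => ?_⟩
    rw [o i hi, show b = 0 by omega]; simp

/-- orthogonality of a block against an element of order 19 -/
theorem gen_x19 (hx : DefOne 19 x) {p : ℕ} [Fact p.Prime] {z : G} {h : DefOne p z} {n : ℕ}
    (T : Gen h n) (hp : p ≠ 19) : 2 + ∑ j, T.s j * tr x (T.c j) + T.s0 * tr x T.E = 0 := by
  have o : ¬ p ∣ orderOf x := fun e => hp ((Nat.prime_dvd_prime_iff_eq Fact.out Fact.out).1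
    (hx.ord ▸ e))
  have a := T.lin x o
  have b := T.lin x⁻¹ (by rwa [orderOf_inv])
  have : (2 : ℂ) + ∑ j, T.s j * (tr x (T.c j) : ℂ) + T.s0 * tr x T.E = 0 := by
    simp only [← (xt19 hN hx (T.ne_one _)).1, ← (xt19 hN hx (T.X1 _ T.E_mem)).1, mul_add,
      Finset.sum_add_distrib]
    linear_combination a + b
  exact_mod_cast this

theorem tf19_eq (hx : DefOne 19 x) {χ : IrrCharacter G} (h1 : χ ≠ one1 G) {s : ℤ}
    (hs : s = 1 ∨ s = -1) :
    tf19 (s * deg χ) = s * tr x χ ∧ -2 ≤ tf19 (s * deg χ) ∧ tf19 (s * deg χ) ≤ 2 := by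
  obtain ⟨-, h2, h3, -⟩ := xt19 hN hx h1
  simp only [List.mem_cons, List.not_mem_nil, or_false] at h2
  rcases hs with rfl | rfl <;> simp only [tf19] <;> omega

theorem mem_SP (hx : DefOne 19 x) {χ : IrrCharacter G} (h1 : χ ≠ one1 G) {s : ℤ}
    (hs : s = 1 ∨ s = -1) {L b : ℕ} {p r : ℤ} (h : s * deg χ ∈ SD L b p r) :
    (s * deg χ, s * tr x χ) ∈ SP L b p r := by
  obtain ⟨h2, h3, h4⟩ := tf19_eq hN hx h1 hs
  simp only [SP, List.mem_map, List.mem_filter, Bool.and_eq_true, decide_eq_true_eq]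
  exact ⟨_, ⟨h, h3, h4⟩, by rw [h2]⟩

/-- no element of order `19 p` -/
theorem not_19 {p : ℕ} [Fact p.Prime] (k : DefOne p y) (hp : p ≠ 19) : ¬ 19 ∣ Nat.card k.V :=
  fun h => by
  obtain ⟨x, hx⟩ := exD19 hN
  obtain ⟨u, hu, ou⟩ := exists_mem_V k 19 h
  exact La.reg_of_not_dvd hx k hp.symm (by
    rw [(loc19 hN hx).1, card_bot, Nat.dvd_one]; exact (Fact.out : p.Prime).ne_one) (k.V_le hu)
    (ou ▸ dvd_rfl)

theorem loc17' (h : DefOne 17 y) :
    (h.V = ⊥ ∧ Nat.card h.H = 8) ∨ (Nat.card h.H = 16 ∧ Nat.card h.V = 9) := by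
  obtain ⟨h1, h2, h3, h4, -, h5, h6⟩ := idx hN h (m := 2954880) rfl
  obtain ⟨n, hn, ⟨T⟩⟩ := ex_gen h
  have h7 : n ∈ [1, 3, 7, 15] := by
    rw [hn] at h5 h6
    have : n < 16 := by have := Nat.le_of_dvd (by norm_num) h5; omega
    interval_cases n <;> simp at h5 h6 ⊢
  by_cases hV : h.V = ⊥
  · refine .inl ⟨hV, ?_⟩
    rw [hV, card_bot, hn] at h3
    simp only [List.mem_cons, List.not_mem_nil, or_false] at h7
    rcases h7 with rfl | rfl | rfl | rfl <;> simp at h3 <;> exact hn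
  right
  obtain ⟨x, hx⟩ := exD19 hN
  obtain ⟨q1, q2⟩ := q_mem hN T (T.large (perf hN) hV)
  rw [h4] at q1 q2
  have h8 := gen_x19 hN hx T (by decide)
  rcases chk17 _ h1 (mt card_eq_one.1 hV) (fun e => not_19 hN h (by decide)
    (Nat.dvd_of_mod_eq_zero e)) n h7 (hn ▸ h2) (hn ▸ h3) with h9 | ⟨h9, h10⟩
  · obtain ⟨rfl, e⟩ := Prod.mk.inj h9
    exact ⟨hn, e⟩
  · have h11 : 0 ≤ ∑ j, T.s j * tr x (T.c j) := Finset.sum_nonneg fun j _ =>
      h9 _ (mem_SP hN hx (T.ne_one j) (T.s_eq j) (q1 j))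
    have h12 : -1 ≤ T.s0 * tr x T.E := h10 _ (mem_SP hN hx (T.X1 _ T.E_mem) T.s0_eq q2)
    omega

theorem loc17 (h : DefOne 17 y) : h.V = ⊥ ∧ Nat.card h.H = 8 :=
  (loc17' hN h).resolve_right fun c => not_169 hN h c.1 c.2

theorem exLoc : ∃ x y : G, Loc x y := by
  obtain ⟨x, hx⟩ := exD19 hN
  obtain ⟨y, hy⟩ := exD17 hN
  exact ⟨x, y, hN, hx, (loc19 hN hx).1, (loc19 hN hx).2, hy, (loc17 hN hy).1, (loc17 hN hy).2⟩

end JT
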