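import Cfsg.Agent.JT.L0

/-! Simple groups of order 50232960: the Sylow 19-normalizer has order `19 * 9`. -/

set_option autoImplicit false
set_option linter.unusedSectionVars false

namespace JT
open Cfsg H8 H2 Subgroup MQ

theorem chk19 : ∀ v ∈ dvG, v ≠ 1 → ∀ n ∈ [1, 2, 5, 8, 17], 2643840 % ((n + 1) * v) = 0 →
    2643840 / ((n + 1) * v) % 19 = 1 → (n, v) ∈ [(5, 144), (17, 48)] ∨
    ((∀ q ∈ SD (2643840 / v) 38 19 1, q % 3 = 0) ∧
      ∀ q ∈ SD (2643840 / v) 38 19 (-(n + 1)), q % 3 = 0) ∨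
    ∀ d ∈ SD (2643840 / v) 38 19 (-(n + 1)),
      reach (SD (2643840 / v) 38 19 1) n (-1 - d) = false := by
  decide +kernel

theorem chk19a : (∀ q ∈ SD 18360 38 19 1, q ∈ [(-360 : ℤ), 153, -170, 3060]) ∧
    (∀ q ∈ SD 18360 38 19 (-(5 + 1)), q ∈ [(108 : ℤ), -120, 51, -918, 1020]) ∧
    (∀ q ∈ SD 55080 38 19 1, q ∈ [(324 : ℤ), -360, 153, -2754, -170, 3060]) ∧
    ∀ q ∈ SD 55080 38 19 (-(17 + 1)), q ∈ [(324 : ℤ), -360, 153, -2754, -170, 3060] := by
  decide +kernel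

variable {G : Type*} [Group G] [Fintype G] [IsSimpleGroup G] {x y w : G}
  (hN : Nat.card G = 50232960)
include hN

theorem exD17 : ∃ y : G, DefOne 17 y := exists_defOne (m := 2954880) hN (by norm_num)
theorem exD19 : ∃ y : G, DefOne 19 y := exists_defOne (m := 2643840) hN (by norm_num)
theorem exD5 : ∃ y : G, DefOne 5 y := exists_defOne (m := 10046592) hN (by norm_num)

/-- the mean over a 17-section -/
theorem mu17 (l : DefOne 17 y) {χ : IrrCharacter G} (h1 : χ ≠ one1 G) :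
    mu l χ = 0 ∨ (∃ s : ℤ, (s = 1 ∨ s = -1) ∧ mu l χ = s ∧ (17 : ℤ) ∣ s * deg χ - 1) ∨
      deg χ % 17 ∈ [2, 4, 8, 9, 13, 15] := by
  obtain ⟨m, hm, ⟨T⟩⟩ := ex_gen l
  obtain ⟨-, -, -, -, -, h2, h3⟩ := idx hN l (m := 2954880) rfl
  rcases mu_cases T h1 with h | h | ⟨-, h, h'⟩
  · exact .inl h
  · exact .inr (.inl h)
  refine .inr (.inr ?_)
  rw [hm] at h2 h3
  have h4 : m = 1 ∨ m = 3 ∨ m = 7 := by
    have : m < 15 := by omega
    interval_cases m <;> omega
  simp only [List.mem_cons, List.not_mem_nil, or_false]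
  push_cast at h
  rcases T.s0_eq with e | e <;> rw [e] at h <;> omega

theorem not_48 (h : DefOne 19 x) (he : Nat.card h.H = 18) (hv : Nat.card h.V = 48) : False := by
  obtain ⟨T⟩ := exists_gen h (n := 17) he
  obtain ⟨y, l⟩ := exD17 hN
  obtain ⟨-, -, -, hi, -⟩ := idx hN h (m := 2643840) rfl
  obtain ⟨q1, q2⟩ := q_mem hN T (T.large (perf hN) fun e => by simp [e] at hv)
  rw [hi, hv] at q1 q2
  have key : ∀ (χ : IrrCharacter G) (s : ℤ), χ ≠ one1 G → (s = 1 ∨ s = -1) →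
      s * deg χ ∈ [(324 : ℤ), -360, 153, -2754, -170, 3060] → ∃ n : ℕ, s * mu l χ = n := by
    intro χ s h1 hs h2
    simp only [List.mem_cons, List.not_mem_nil, or_false] at h2
    by_cases h3 : 17 ∣ deg χ
    · exact ⟨0, by rw [mu_dvd l h3]; simp⟩
    rcases mu17 hN l h1 with h4 | ⟨t, ht, h4, h5⟩ | h4
    · exact ⟨0, by rw [h4]; simp⟩
    · obtain ⟨rfl, rfl⟩ : s = 1 ∧ t = 1 := by
        rcases hs with rfl | rfl <;> rcases ht with rfl | rfl <;> omega
      exact ⟨1, by rw [h4]; simp⟩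
    · simp only [List.mem_cons, List.not_mem_nil, or_false] at h4
      rcases hs with rfl | rfl <;> omega
  choose a ha using fun j => key _ _ (T.ne_one j) (T.s_eq j) (chk19a.2.2.1 _ (q1 j))
  obtain ⟨b, hb⟩ := key _ _ (T.X1 _ T.E_mem) T.s0_eq (chk19a.2.2.2 _ q2)
  have := mu_gen T l fun g hg => La.reg_of_not_dvd h l (by decide) (by rw [hv]; decide) hg
  simp only [ha, hb] at this
  have h2 : 1 + ∑ j, a j + b = 0 := by exact_mod_cast this
  omega

theorem not_144 (h : DefOne 19 x) (he : Nat.card h.H = 6) (hv : Nat.card h.V = 144) : False := by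
  obtain ⟨T⟩ := exists_gen h (n := 5) he
  obtain ⟨y, l⟩ := exD17 hN
  obtain ⟨r, k⟩ := exD5 hN
  obtain ⟨-, -, -, hi, -⟩ := idx hN h (m := 2643840) rfl
  obtain ⟨q1, q2⟩ := q_mem hN T (T.large (perf hN) fun e => by simp [e] at hv)
  rw [hi, hv] at q1 q2
  replace q1 := fun j => chk19a.1 _ (q1 j)
  replace q2 := chk19a.2.1 _ q2
  simp only [List.mem_cons, List.not_mem_nil, or_false, Gen.q, Gen.q0] at q1 q2
  have m1 := mu_gen T l fun g hg => La.reg_of_not_dvd h l (by decide) (by rw [hv]; decide) hg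
  have m2 := mu_gen T k fun g hg => La.reg_of_not_dvd h k (by decide) (by rw [hv]; decide) hg
  have h1 : ∀ j, mu l (T.c j) = 0 := fun j => by
    by_cases h3 : 17 ∣ deg (T.c j)
    · exact mu_dvd l h3
    have h6 := q1 j
    rcases mu17 hN l (T.ne_one j) with h4 | ⟨t, ht, h4, h5⟩ | h4
    · exact h4
    · rcases T.s_eq j with e | e <;> rw [e] at h6 <;> rcases ht with rfl | rfl <;> omega
    · simp only [List.mem_cons, List.not_mem_nil, or_false] at h4
      rcases T.s_eq j with e | e <;> rw [e] at h6 <;> omega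
  have h2 : mu l T.E ≠ 0 := fun e => by simp [h1, e] at m1
  have h3 : 5 ∣ deg T.E := by
    have h3 : ¬ 17 ∣ deg T.E := fun e => h2 (mu_dvd l e)
    rcases mu17 hN l (T.X1 _ T.E_mem) with h4 | ⟨t, ht, h4, h5⟩ | h4
    · exact absurd h4 h2
    · rcases T.s0_eq with e | e <;> rw [e] at q2 <;> rcases ht with rfl | rfl <;> omega
    · simp only [List.mem_cons, List.not_mem_nil, or_false] at h4
      rcases T.s0_eq with e | e <;> rw [e] at q2 <;> omega
  obtain ⟨j, hj⟩ : ∃ j, mu k (T.c j) ≠ 0 := by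
    by_contra h4
    simp only [not_exists, not_not] at h4
    simp [h4, mu_dvd k h3] at m2
  have h4 : deg (T.c j) = 153 := by
    have h5 : ¬ 5 ∣ deg (T.c j) := fun e => hj (mu_dvd k e)
    have h6 := q1 j
    rcases T.s_eq j with e | e <;> rw [e] at h6 <;> omega
  obtain ⟨m, hm, ⟨T'⟩⟩ := ex_gen k
  obtain ⟨-, -, -, -, h5, -, h6⟩ := idx hN k (m := 10046592) rfl
  rcases mu_cases T' (T.ne_one j) with h7 | ⟨t, ht, -, h7⟩ | ⟨h7, h8, h9⟩
  · exact hj h7
  · rw [h4] at h7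
    rcases ht with rfl | rfl <;> omega
  obtain rfl : m = 1 := by
    rw [h4] at h8
    have := T'.cardX
    have : m < 3 := by omega
    interval_cases m <;> omega
  have h10 := T'.sum_deg
  have h11 := (T'.dvd 0).trans h5
  rw [Fin.sum_univ_one, Gen.q, Gen.q0, ← T'.deg_X h7, h4] at h10
  rw [h4] at h8
  obtain e : deg (T'.c 0) = 154 := by
    rcases T'.s_eq 0 with e | e <;> rcases T'.s0_eq with e' | e' <;> rw [e'] at h8 <;>
      rw [e, e'] at h10 <;> omega
  rw [e] at h11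
  omega

theorem loc19 (h : DefOne 19 x) : h.V = ⊥ ∧ Nat.card h.H = 9 := by
  obtain ⟨h1, h2, h3, h4, -, h5, h6⟩ := idx hN h (m := 2643840) rfl
  obtain ⟨n, hn, ⟨T⟩⟩ := ex_gen h
  have h7 : n ∈ [1, 2, 5, 8, 17] := by
    rw [hn] at h5 h6
    have : n < 18 := by have := Nat.le_of_dvd (by norm_num) h5; omega
    interval_cases n <;> simp at h5 h6 ⊢
  by_cases hV : h.V = ⊥
  · refine ⟨hV, ?_⟩
    rw [hV, card_bot, hn] at h3
    simp only [List.mem_cons, List.not_mem_nil, or_false] at h7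
    rcases h7 with rfl | rfl | rfl | rfl | rfl <;> simp at h3 <;> exact hn
  exfalso
  obtain ⟨q1, q2⟩ := q_mem hN T (T.large (perf hN) hV)
  rw [h4] at q1 q2
  have h8 := T.sum_deg
  rcases chk19 _ h1 (mt card_eq_one.1 hV) n h7 (hn ▸ h2) (hn ▸ h3) with h9 | ⟨h9, h10⟩ | h9
  · simp only [List.mem_cons, Prod.mk.injEq, List.not_mem_nil, or_false] at h9
    rcases h9 with ⟨rfl, e⟩ | ⟨rfl, e⟩
    · exact not_144 hN h hn e
    · exact not_48 hN h hn e
  · have h11 : (3 : ℤ) ∣ ∑ j, T.q j :=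
      Finset.dvd_sum fun j _ => Int.dvd_of_emod_eq_zero (h9 _ (q1 j))
    have := h10 _ q2
    omega
  · have := h9 _ q2
    rw [show -1 - T.q0 = ∑ j, T.q j by omega] at this
    exact Bool.noConfusion (this.symm.trans (reach_fin q1))

end JT
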